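import Cfsg.Agent.Lib.Helper12.N9.Defs
import Cfsg.Prelude.Def_Transfer

set_option autoImplicit false

namespace Cfsg.Agent.Lib.Helper12.N9

variable {S : Type*} [Group S] {M : Type*} [AddCommGroup M] [Module (ZMod 2) M]
  {ρ : Representation (ZMod 2) S M} {a b s t z : S}

theorem act_mul (g h : S) (m : M) : ρ g (ρ h m) = ρ (g * h) m := by
  rw [map_mul]; rfl

theorem act_add_self (m : M) : m + m = 0 := by
  have h : (2 : ZMod 2) = 0 := by decide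
  rw [← two_smul (ZMod 2) m, h, zero_smul]

/-- [ACT] the action of the generators on the four vectors. -/
theorem act (R : Rel a b s t z) {w : M} (haw : ρ a w = w) (hsw : ρ s w = w) (hzw : ρ z w = w)
    (hbb : ρ b (ρ b w) = w + ρ b w) :
    ρ a (ρ b w) = ρ b w ∧ ρ a (ρ t w) = ρ t (ρ b w) ∧ ρ a (ρ t (ρ b w)) = ρ t w + ρ t (ρ b w) ∧
    ρ b (ρ t w) = ρ t w ∧ ρ b (ρ t (ρ b w)) = ρ t (ρ b w) ∧
    ρ s (ρ b w) = w + ρ b w ∧ ρ s (ρ t w) = ρ t w ∧ ρ s (ρ t (ρ b w)) = ρ t (ρ b w) ∧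
    ρ t (ρ t w) = w ∧ ρ t (ρ t (ρ b w)) = ρ b w ∧
    ρ z (ρ b w) = w + ρ b w ∧ ρ z (ρ t w) = ρ t w ∧ ρ z (ρ t (ρ b w)) = ρ t w + ρ t (ρ b w) := by
  have hab : ∀ x : M, ρ a (ρ b x) = ρ b (ρ a x) := fun x => by
    rw [act_mul, act_mul, R.ab]
  have hat : ∀ x : M, ρ a (ρ t x) = ρ t (ρ b x) := fun x => by
    rw [act_mul, act_mul, R.tb]
  have hbt : ∀ x : M, ρ b (ρ t x) = ρ t (ρ a x) := fun x => by
    rw [act_mul, act_mul, R.ta]
  have hbinv : b⁻¹ = b * b := by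
    apply inv_eq_of_mul_eq_one_right
    rw [← R.b3, pow_succ, pow_two, mul_assoc]
  have hbi : ρ b⁻¹ w = w + ρ b w := by
    rw [hbinv, ← act_mul, hbb]
  have hsb : ∀ x : M, ρ s (ρ b x) = ρ b⁻¹ (ρ s x) := fun x => by
    rw [act_mul, act_mul, R.sb]
  have hzb : ∀ x : M, ρ z (ρ b x) = ρ b⁻¹ (ρ z x) := fun x => by
    rw [act_mul, act_mul, R.zb]
  have hst' : s * t = t * z * s := by
    calc s * t = s * t * (s * s) := by rw [R.s2, mul_one]
      _ = (s * t * s) * s := by group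
      _ = t * z * s := by rw [R.sts]
  have hst : ∀ x : M, ρ s (ρ t x) = ρ t (ρ z (ρ s x)) := fun x => by
    rw [act_mul, act_mul, act_mul, hst', mul_assoc]
  have htt : ∀ x : M, ρ t (ρ t x) = x := fun x => by
    rw [act_mul, R.t2, map_one]; rfl
  have hzt : ∀ x : M, ρ z (ρ t x) = ρ t (ρ z x) := fun x => by
    rw [act_mul, act_mul, R.zt]
  have e1 : ρ a (ρ b w) = ρ b w := by rw [hab, haw]
  have e6 : ρ s (ρ b w) = w + ρ b w := by rw [hsb, hsw, hbi]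
  have e11 : ρ z (ρ b w) = w + ρ b w := by rw [hzb, hzw, hbi]
  refine ⟨e1, hat w, ?_, ?_, ?_, e6, ?_, ?_, htt w, htt _, e11, ?_, ?_⟩
  · rw [hat, hbb, map_add]
  · rw [hbt, haw]
  · rw [hbt, e1]
  · rw [hst, hsw, hzw]
  · rw [hst, e6, map_add, hzw, e11, ← add_assoc, act_add_self, zero_add]
  · rw [hzt, hzw]
  · rw [hzt, e11, map_add]

end Cfsg.Agent.Lib.Helper12.N9
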