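import Cfsg.Agent.Lib.Helper12.N9.Defs
import Cfsg.Prelude.Def_Transfer

set_option autoImplicit false

namespace Cfsg.Agent.Lib.Helper12.N9

variable {S : Type*} [Group S] {M : Type*} [AddCommGroup M] [Module (ZMod 2) M]
  {ρ : Representation (ZMod 2) S M} {a b s t z : S}

theorem bb_mul (g h : S) (m : M) : ρ g (ρ h m) = ρ (g * h) m := by
  rw [map_mul, Module.End.mul_apply]

omit [Group S] in
theorem bb_two (m : M) : m + m = 0 := by
  have := CharTwo.add_self_eq_zero (R := ZMod 2) (1 : ZMod 2)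
  rw [← one_smul (ZMod 2) m, ← add_smul, this, zero_smul]

/-- [BB] (1 + b + b^2) w is fixed by a and b. -/
theorem bb (R : Rel a b s t z) (h0 : ∀ m : M, ρ a m = m → ρ b m = m → m = 0) {w : M} (haw : ρ a w = w) :
    ρ b (ρ b w) = w + ρ b w := by
  have hab : ∀ m : M, ρ a (ρ b m) = ρ b (ρ a m) := fun m => by rw [bb_mul, bb_mul, R.ab]
  have hb3 : ρ b (ρ b (ρ b w)) = w := by
    rw [bb_mul, bb_mul]
    have : b * b * b = b ^ 3 := by rw [pow_succ, pow_two]
    rw [this, R.b3, map_one, Module.End.one_apply]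
  have key := h0 (w + ρ b w + ρ b (ρ b w)) (by simp only [map_add, hab, haw])
    (by rw [map_add, map_add, hb3]; abel)
  have h2 := bb_two (w + ρ b w)
  calc ρ b (ρ b w) = (w + ρ b w + ρ b (ρ b w)) + (w + ρ b w) - ((w + ρ b w) + (w + ρ b w)) := by abel
    _ = w + ρ b w := by rw [key, h2]; abel

end Cfsg.Agent.Lib.Helper12.N9
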