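import Cfsg.Agent.Lib.Helper12.N9.Defs
import Cfsg.Prelude.Def_Transfer

set_option autoImplicit false

namespace Cfsg.Agent.Lib.Helper12.N9

variable {S : Type*} [Group S] {M : Type*} [AddCommGroup M] [Module (ZMod 2) M]
  {ρ : Representation (ZMod 2) S M} {a b s t z : S}

/-- [BR] -/
theorem br (x y : S) (m : M) :
    (∀ g ∈ Subgroup.closure {x, y}, ρ g m = m) ↔ (ρ x m = m ∧ ρ y m = m) := by
  constructor
  · intro h
    exact ⟨h x (Subgroup.subset_closure (by simp)), h y (Subgroup.subset_closure (by simp))⟩
  · rintro ⟨hx, hy⟩ g hg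
    induction hg using Subgroup.closure_induction with
    | mem g hg =>
      rcases hg with rfl | rfl
      · exact hx
      · exact hy
    | one => simp
    | mul g h _ _ ihg ihh => rw [map_mul, Module.End.mul_apply, ihh, ihg]
    | inv g _ ih =>
      have : ρ g⁻¹ (ρ g m) = m := by
        rw [← Module.End.mul_apply, ← map_mul, inv_mul_cancel, map_one, Module.End.one_apply]
      rw [ih] at this
      exact this

end Cfsg.Agent.Lib.Helper12.N9
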