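import Cfsg.Agent.Lib.Helper12.N9.Defs
import Cfsg.Prelude.Def_Transfer

set_option autoImplicit false

namespace Cfsg.Agent.Lib.Helper12.N9

variable {S : Type*} [Group S] {M : Type*} [AddCommGroup M] [Module (ZMod 2) M]
  {ρ : Representation (ZMod 2) S M} {a b s t z : S}

theorem c1_mul (g h : S) (m : M) : ρ g (ρ h m) = ρ (g * h) m := by
  rw [map_mul]
  rfl

theorem c1_add_self (x : M) : x + x = 0 := by
  rw [← two_smul (ZMod 2) x]
  have : (2 : ZMod 2) = 0 := rfl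
  rw [this, zero_smul]

/-- a non-zero vector fixed by the involution `u`, in the span of `v`, `u v`. -/
theorem c1_aux (u : S) (hu : u * u = 1) (v : M) (hv : v ≠ 0) :
    ∃ v' : M, v' ≠ 0 ∧ ρ u v' = v' ∧ (v' = v ∨ v' = v + ρ u v) := by
  by_cases h : v + ρ u v = 0
  · refine ⟨v, hv, ?_, Or.inl rfl⟩
    calc ρ u v = (v + ρ u v) + v - (v + v) := by abel
      _ = v := by rw [h, c1_add_self, zero_add, sub_zero]
  · refine ⟨v + ρ u v, h, ?_, Or.inr rfl⟩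
    rw [map_add, c1_mul, hu, map_one, add_comm]
    rfl

theorem c1 (R : Rel a b s t z) (hne : ∃ m : M, m ≠ 0 ∧ ρ a m = m) :
    ∃ w : M, w ≠ 0 ∧ ρ a w = w ∧ ρ s w = w ∧ ρ z w = w := by
  obtain ⟨w₀, hw₀, ha₀⟩ := hne
  obtain ⟨w₁, hw₁, hs₁, hc₁⟩ := c1_aux (ρ := ρ) s R.s2 w₀ hw₀
  have has : ∀ x : M, ρ a x = x → ρ a (ρ s x) = ρ s x := by
    intro x hx
    rw [c1_mul, ← R.sa, ← c1_mul, hx]
  have ha₁ : ρ a w₁ = w₁ := by
    rcases hc₁ with rfl | rfl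
    · exact ha₀
    · rw [map_add, has _ ha₀, ha₀]
  obtain ⟨w, hw, hz, hc⟩ := c1_aux (ρ := ρ) z R.z2 w₁ hw₁
  have hainv : ∀ x : M, ρ a x = x → ρ a⁻¹ x = x := by
    intro x hx
    calc ρ a⁻¹ x = ρ a⁻¹ (ρ a x) := by rw [hx]
      _ = x := by
        rw [c1_mul, inv_mul_cancel, map_one]
        rfl
  have haz : ∀ x : M, ρ a x = x → ρ a (ρ z x) = ρ z x := by
    intro x hx
    have e : a * z = z * a⁻¹ := by
      have := R.za
      calc a * z = a * (z * a) * a⁻¹ := by group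
        _ = a * (a⁻¹ * z) * a⁻¹ := by rw [this]
        _ = z * a⁻¹ := by group
    rw [c1_mul, e, ← c1_mul, hainv x hx]
  have hsz : ∀ x : M, ρ s x = x → ρ s (ρ z x) = ρ z x := by
    intro x hx
    rw [c1_mul, ← R.zs, ← c1_mul, hx]
  refine ⟨w, hw, ?_, ?_, hz⟩
  · rcases hc with rfl | rfl
    · exact ha₁
    · rw [map_add, haz _ ha₁, ha₁]
  · rcases hc with rfl | rfl
    · exact hs₁
    · rw [map_add, hsz _ hs₁, hs₁]

end Cfsg.Agent.Lib.Helper12.N9
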