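import Cfsg.Agent.Lib.Helper12.N9.Defs
import Cfsg.Prelude.Def_Transfer

set_option autoImplicit false

namespace Cfsg.Agent.Lib.Helper12.N9

variable {S : Type*} [Group S] {M : Type*} [AddCommGroup M] [Module (ZMod 2) M]
  {ρ : Representation (ZMod 2) S M} {a b s t z : S}

theorem c3_mul (g h : S) (m : M) : ρ g (ρ h m) = ρ (g * h) m := by
  rw [map_mul]
  rfl

theorem c3_aux (N : Submodule (ZMod 2) M) (g : S) (k : ℕ) (hk : g ^ (k + 1) = 1)
    (h : ∀ m ∈ N, ρ g m ∈ N) (m : M) : m ∈ N ↔ ρ g m ∈ N := by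
  refine ⟨h m, fun hm => ?_⟩
  have hpow : ∀ (j : ℕ) (x : M), x ∈ N → ρ (g ^ j) x ∈ N := by
    intro j
    induction j with
    | zero =>
      intro x hx
      rw [pow_zero, map_one]
      exact hx
    | succ j ih =>
      intro x hx
      rw [pow_succ, ← c3_mul]
      exact ih _ (h x hx)
  have h1 := hpow k _ hm
  rw [c3_mul, ← pow_succ, hk, map_one] at h1
  exact h1

theorem c3 (R : Rel a b s t z) (hgen : Subgroup.closure {a, b, s, t} = ⊤) (N : Submodule (ZMod 2) M)
    (h1 : ∀ m ∈ N, ρ a m ∈ N) (h2 : ∀ m ∈ N, ρ b m ∈ N) (h3 : ∀ m ∈ N, ρ s m ∈ N) (h4 : ∀ m ∈ N, ρ t m ∈ N) :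
    ∀ g : S, ∀ m ∈ N, ρ g m ∈ N := by
  let H : Subgroup S :=
    { carrier := {g | ∀ m, m ∈ N ↔ ρ g m ∈ N}
      one_mem' := by
        intro m
        rw [map_one]
        rfl
      mul_mem' := by
        intro g h hg hh m
        rw [← c3_mul]
        exact (hh m).trans (hg _)
      inv_mem' := by
        intro g hg m
        have h5 := hg (ρ g⁻¹ m)
        rw [c3_mul, mul_inv_cancel, map_one] at h5
        exact h5.symm }
  have hH : H = ⊤ := by
    rw [eq_top_iff, ← hgen, Subgroup.closure_le]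
    rintro g (rfl | rfl | rfl | rfl)
    · exact c3_aux N g 2 R.a3 h1
    · exact c3_aux N g 2 R.b3 h2
    · exact c3_aux N g 1 (by rw [pow_two]; exact R.s2) h3
    · exact c3_aux N g 1 (by rw [pow_two]; exact R.t2) h4
  intro g m hm
  have hg : g ∈ H := by
    rw [hH]
    trivial
  exact (hg m).1 hm

end Cfsg.Agent.Lib.Helper12.N9
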