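import Cfsg.Agent.Lib.Helper12.N9.Defs
import Cfsg.Prelude.Def_Transfer

/-! Mini-ladder N9 (S4407), rung CARD. -/

set_option autoImplicit false

namespace Cfsg.Agent.Lib.Helper12.N9

variable {S : Type*} [Group S] {M : Type*} [AddCommGroup M] [Module (ZMod 2) M]
  {ρ : Representation (ZMod 2) S M} {a b s t z : S}

theorem card_all {w₁ w₂ w₃ w₄ : M}
    (hspan : ∀ m : M, ∃ c₁ c₂ c₃ c₄ : ZMod 2, m = c₁ • w₁ + c₂ • w₂ + c₃ • w₃ + c₄ • w₄)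
    (hind : ∀ c₁ c₂ c₃ c₄ : ZMod 2, c₁ • w₁ + c₂ • w₂ + c₃ • w₃ + c₄ • w₄ = 0 → c₁ = 0 ∧ c₂ = 0 ∧ c₃ = 0 ∧ c₄ = 0) :
    Nat.card M = 16 ∧ Nat.card {m : M // ∃ c₁ c₃ : ZMod 2, m = c₁ • w₁ + c₃ • w₃} = 4 ∧
      Nat.card {m : M // ∃ c : ZMod 2, m = c • (w₁ + w₃)} = 2 := by
  have hinj : ∀ c₁ c₂ c₃ c₄ d₁ d₂ d₃ d₄ : ZMod 2,
      c₁ • w₁ + c₂ • w₂ + c₃ • w₃ + c₄ • w₄ = d₁ • w₁ + d₂ • w₂ + d₃ • w₃ + d₄ • w₄ →
      c₁ = d₁ ∧ c₂ = d₂ ∧ c₃ = d₃ ∧ c₄ = d₄ := by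
    intro c₁ c₂ c₃ c₄ d₁ d₂ d₃ d₄ h
    obtain ⟨h1, h2, h3, h4⟩ := hind (c₁ - d₁) (c₂ - d₂) (c₃ - d₃) (c₄ - d₄) (by
      rw [← sub_eq_zero] at h
      rw [← h]
      simp only [sub_smul]
      abel)
    exact ⟨sub_eq_zero.1 h1, sub_eq_zero.1 h2, sub_eq_zero.1 h3, sub_eq_zero.1 h4⟩
  refine ⟨?_, ?_, ?_⟩
  · have hb : Function.Bijective (fun c : ZMod 2 × ZMod 2 × ZMod 2 × ZMod 2 =>
        c.1 • w₁ + c.2.1 • w₂ + c.2.2.1 • w₃ + c.2.2.2 • w₄) := by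
      constructor
      · rintro ⟨c₁, c₂, c₃, c₄⟩ ⟨d₁, d₂, d₃, d₄⟩ h
        obtain ⟨h1, h2, h3, h4⟩ := hinj _ _ _ _ _ _ _ _ h
        simp only at h1 h2 h3 h4
        rw [h1, h2, h3, h4]
      · intro m
        obtain ⟨c₁, c₂, c₃, c₄, h⟩ := hspan m
        exact ⟨(c₁, c₂, c₃, c₄), h.symm⟩
    rw [← Nat.card_congr (Equiv.ofBijective _ hb)]
    simp [Nat.card_prod]
  · have hb : Function.Bijective (fun c : ZMod 2 × ZMod 2 =>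
        (⟨c.1 • w₁ + c.2 • w₃, c.1, c.2, rfl⟩ : {m : M // ∃ c₁ c₃ : ZMod 2, m = c₁ • w₁ + c₃ • w₃})) := by
      constructor
      · rintro ⟨c₁, c₃⟩ ⟨d₁, d₃⟩ h
        have h' := congrArg Subtype.val h
        simp only at h'
        obtain ⟨h1, -, h3, -⟩ := hinj c₁ 0 c₃ 0 d₁ 0 d₃ 0 (by simpa using h')
        rw [h1, h3]
      · rintro ⟨m, c₁, c₃, rfl⟩
        exact ⟨(c₁, c₃), rfl⟩
    rw [← Nat.card_congr (Equiv.ofBijective _ hb)]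
    simp [Nat.card_prod]
  · have hb : Function.Bijective (fun c : ZMod 2 =>
        (⟨c • (w₁ + w₃), c, rfl⟩ : {m : M // ∃ c : ZMod 2, m = c • (w₁ + w₃)})) := by
      constructor
      · intro c d h
        have h' := congrArg Subtype.val h
        simp only [smul_add] at h'
        exact (hinj c 0 c 0 d 0 d 0 (by simpa using h')).1
      · rintro ⟨m, c, rfl⟩
        exact ⟨c, rfl⟩
    rw [← Nat.card_congr (Equiv.ofBijective _ hb)]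
    simp

end Cfsg.Agent.Lib.Helper12.N9
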