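import Mathlib

/-! Mini-ladder N9 (S4407): faithful irreducible `F_2`-modules of `3^2 : D_8`. -/

set_option autoImplicit false

namespace Cfsg.Agent.Lib.Helper12.N9

/-- relations of `3^2 : D_8`: `A = <a> x <b>`, `X = <s, t>`, `z = (s t)^2`; `s` centralises `a` and inverts `b`,
`t` swaps `a` and `b`, `z` inverts `A`. -/
structure Rel {S : Type*} [Group S] (a b s t z : S) : Prop where
  a3 : a ^ 3 = 1
  b3 : b ^ 3 = 1
  ab : a * b = b * a
  s2 : s * s = 1
  t2 : t * t = 1
  z2 : z * z = 1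
  zs : z * s = s * z
  zt : z * t = t * z
  tst : t * s * t = s * z
  sts : s * t * s = t * z
  sa : s * a = a * s
  sb : s * b = b⁻¹ * s
  ta : t * a = b * t
  tb : t * b = a * t
  za : z * a = a⁻¹ * z
  zb : z * b = b⁻¹ * z

/-- the images in `S` of `sr 0`, `sr 1`, `r 2` -/
def es {S : Type*} [Group S] {X : Subgroup S} (e : ↥X ≃* DihedralGroup 4) : S :=
  ((e.symm (DihedralGroup.sr 0) : ↥X) : S)

def et {S : Type*} [Group S] {X : Subgroup S} (e : ↥X ≃* DihedralGroup 4) : S :=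
  ((e.symm (DihedralGroup.sr 1) : ↥X) : S)

def ez {S : Type*} [Group S] {X : Subgroup S} (e : ↥X ≃* DihedralGroup 4) : S :=
  ((e.symm (DihedralGroup.r 2) : ↥X) : S)

end Cfsg.Agent.Lib.Helper12.N9
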