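import Cfsg.Agent.Lib.Helper12.N9.Defs
import Cfsg.Agent.Lib.Helper12.N9.ACT
import Cfsg.Prelude.Def_Transfer

set_option autoImplicit false

namespace Cfsg.Agent.Lib.Helper12.N9

variable {S : Type*} [Group S] {M : Type*} [AddCommGroup M] [Module (ZMod 2) M]
  {ρ : Representation (ZMod 2) S M} {a b s t z : S}

theorem ind_zmod2 : ∀ c : ZMod 2, c = 0 ∨ c = 1 := by decide

theorem ind_key (h0 : ∀ m : M, ρ a m = m → ρ b m = m → m = 0)
    {w : M} (hw : w ≠ 0) (haw : ρ a w = w)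
    (hbb : ρ b (ρ b w) = w + ρ b w) (c d : ZMod 2) (h : c • w + d • ρ b w = 0) : c = 0 ∧ d = 0 := by
  rcases ind_zmod2 c with rfl | rfl <;> rcases ind_zmod2 d with rfl | rfl
  · exact ⟨rfl, rfl⟩
  · exfalso
    simp only [zero_smul, one_smul, zero_add] at h
    rw [h, map_zero, add_zero] at hbb
    exact hw hbb.symm
  · exfalso
    simp only [zero_smul, one_smul, add_zero] at h
    exact hw h
  · exfalso
    simp only [one_smul] at h
    have h1 : ρ b w = w := by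
      have h2 : ρ b w = -w := (neg_eq_of_add_eq_zero_right h).symm
      rw [h2, ZModModule.neg_eq_self]
    exact hw (h0 w haw h1)

/-- [IND] -/
theorem ind (R : Rel a b s t z) (h0 : ∀ m : M, ρ a m = m → ρ b m = m → m = 0)
    {w : M} (hw : w ≠ 0) (haw : ρ a w = w) (hsw : ρ s w = w) (hzw : ρ z w = w)
    (hbb : ρ b (ρ b w) = w + ρ b w) (c₁ c₂ c₃ c₄ : ZMod 2)
    (h : c₁ • w + c₂ • ρ b w + c₃ • ρ t w + c₄ • ρ t (ρ b w) = 0) : c₁ = 0 ∧ c₂ = 0 ∧ c₃ = 0 ∧ c₄ = 0 := by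
  obtain ⟨e1, -, -, e4, e5, -, -, -, e9, e10, -, -, -⟩ := act R haw hsw hzw hbb
  have hxy : c₁ • w + c₂ • ρ b w = c₃ • ρ t w + c₄ • ρ t (ρ b w) := by
    have h1 : (c₁ • w + c₂ • ρ b w) + (c₃ • ρ t w + c₄ • ρ t (ρ b w)) = 0 := by
      rw [← h]; abel
    have h2 := eq_neg_of_add_eq_zero_left h1
    rw [h2, ZModModule.neg_eq_self]
  have hax : ρ a (c₁ • w + c₂ • ρ b w) = c₁ • w + c₂ • ρ b w := by
    rw [map_add, map_smul, map_smul, haw, e1]
  have hbx : ρ b (c₁ • w + c₂ • ρ b w) = c₁ • w + c₂ • ρ b w := by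
    rw [hxy, map_add, map_smul, map_smul, e4, e5]
  have hx0 := h0 _ hax hbx
  have hy0 : c₃ • ρ t w + c₄ • ρ t (ρ b w) = 0 := by rw [← hxy, hx0]
  have hy1 : c₃ • w + c₄ • ρ b w = 0 := by
    have := congrArg (ρ t) hy0
    rwa [map_add, map_smul, map_smul, e9, e10, map_zero] at this
  obtain ⟨k1, k2⟩ := ind_key h0 hw haw hbb c₁ c₂ hx0
  obtain ⟨k3, k4⟩ := ind_key h0 hw haw hbb c₃ c₄ hy1
  exact ⟨k1, k2, k3, k4⟩

end Cfsg.Agent.Lib.Helper12.N9
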