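import Cfsg.Agent.Lib.Helper12.N9.Defs
import Cfsg.Agent.Lib.Helper12.N9.ACT
import Cfsg.Agent.Lib.Helper12.N9.IND
import Cfsg.Prelude.Def_Transfer

set_option autoImplicit false

namespace Cfsg.Agent.Lib.Helper12.N9

variable {S : Type*} [Group S] {M : Type*} [AddCommGroup M] [Module (ZMod 2) M]
  {ρ : Representation (ZMod 2) S M} {a b s t z : S}

/-- fixed by `z` iff `c₂ = c₄ = 0`. -/
theorem fixs_z (R : Rel a b s t z) (h0 : ∀ m : M, ρ a m = m → ρ b m = m → m = 0)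
    {w : M} (hw : w ≠ 0) (haw : ρ a w = w) (hsw : ρ s w = w) (hzw : ρ z w = w)
    (hbb : ρ b (ρ b w) = w + ρ b w)
    (hspan : ∀ m : M, ∃ c₁ c₂ c₃ c₄ : ZMod 2, m = c₁ • w + c₂ • ρ b w + c₃ • ρ t w + c₄ • ρ t (ρ b w)) (m : M)
    (hz : ρ z m = m) : ∃ c₁ c₃ : ZMod 2, m = c₁ • w + c₃ • ρ t w := by
  obtain ⟨-, -, -, -, -, -, -, -, -, -, z1, z2, z3⟩ := act R haw hsw hzw hbb
  obtain ⟨c₁, c₂, c₃, c₄, rfl⟩ := hspan m
  simp only [map_add, map_smul, hzw, z1, z2, z3] at hz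
  have h1 : c₂ • w + (0 : ZMod 2) • ρ b w + c₄ • ρ t w + (0 : ZMod 2) • ρ t (ρ b w) = 0 := by
    linear_combination (norm := module) hz
  obtain ⟨h2, -, h4, -⟩ := ind R h0 hw haw hsw hzw hbb _ _ _ _ h1
  refine ⟨c₁, c₃, ?_⟩
  rw [h2, h4]
  module

/-- [FIXS] -/
theorem fixs (R : Rel a b s t z) (h0 : ∀ m : M, ρ a m = m → ρ b m = m → m = 0)
    {w : M} (hw : w ≠ 0) (haw : ρ a w = w) (hsw : ρ s w = w) (hzw : ρ z w = w)
    (hbb : ρ b (ρ b w) = w + ρ b w)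
    (hspan : ∀ m : M, ∃ c₁ c₂ c₃ c₄ : ZMod 2, m = c₁ • w + c₂ • ρ b w + c₃ • ρ t w + c₄ • ρ t (ρ b w)) (m : M) :
    (ρ z m = m ∧ ρ s m = m) ↔ ∃ c₁ c₃ : ZMod 2, m = c₁ • w + c₃ • ρ t w := by
  obtain ⟨-, -, -, -, -, -, s2, -, -, -, -, z2, -⟩ := act R haw hsw hzw hbb
  constructor
  · rintro ⟨hz, -⟩
    exact fixs_z R h0 hw haw hsw hzw hbb hspan m hz
  · rintro ⟨c₁, c₃, rfl⟩
    constructor
    · simp only [map_add, map_smul, hzw, z2]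
    · simp only [map_add, map_smul, hsw, s2]

end Cfsg.Agent.Lib.Helper12.N9
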