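import Cfsg.Agent.Lib.Helper12.N9.Defs
import Cfsg.Prelude.Def_Transfer

set_option autoImplicit false

namespace Cfsg.Agent.Lib.Helper12.N9

variable {S : Type*} [Group S] {M : Type*} [AddCommGroup M] [Module (ZMod 2) M]
  {ρ : Representation (ZMod 2) S M} {a b s t z : S}

theorem ga1_comm {A : Subgroup S} (hA : Cfsg.IsElementaryAbelian 3 A) {x y : S} (hx : x ∈ A)
    (hy : y ∈ A) : x * y = y * x := by
  have := hA.1.is_comm.comm ⟨x, hx⟩ ⟨y, hy⟩
  exact congrArg Subtype.val this

theorem ga1 (A : Subgroup S) [A.Normal] (hA : Cfsg.IsElementaryAbelian 3 A) (hs : s * s = 1) :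
    (∃ a ∈ A, a ≠ 1 ∧ s * a = a * s) ∨ ∀ x ∈ A, s * x = x⁻¹ * s := by
  by_cases h : ∀ x ∈ A, s * x = x⁻¹ * s
  · exact Or.inr h
  · left
    push Not at h
    obtain ⟨x, hx, hne⟩ := h
    have hsi : s⁻¹ = s := inv_eq_of_mul_eq_one_left hs
    have hc : s * x * s ∈ A := by
      have := (inferInstance : A.Normal).conj_mem x hx s
      rwa [hsi] at this
    refine ⟨x * (s * x * s), A.mul_mem hx hc, ?_, ?_⟩
    · intro h1
      apply hne
      have h2 : s * x * s = x⁻¹ := (eq_inv_of_mul_eq_one_right h1)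
      calc s * x = s * x * (s * s) := by rw [hs, mul_one]
        _ = (s * x * s) * s := by group
        _ = x⁻¹ * s := by rw [h2]
    · have hcomm := ga1_comm hA hx hc
      calc s * (x * (s * x * s)) = (s * x * s) * ((s * s) * x * s) := by
            rw [hs]; group
        _ = (s * x * s) * x * s := by rw [hs]; group
        _ = x * (s * x * s) * s := by rw [← hcomm]

end Cfsg.Agent.Lib.Helper12.N9
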