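import Cfsg.Agent.Lib.Helper12.N9.Defs
import Cfsg.Agent.Lib.Helper12.N9.GA1
import Cfsg.Prelude.Def_Transfer

set_option autoImplicit false

namespace Cfsg.Agent.Lib.Helper12.N9

variable {S : Type*} [Group S] {M : Type*} [AddCommGroup M] [Module (ZMod 2) M]
  {ρ : Representation (ZMod 2) S M} {a b s t z : S}

theorem ga2 (A : Subgroup S) [A.Normal] (hA : Cfsg.IsElementaryAbelian 3 A)
    (hAC : Subgroup.centralizer (A : Set S) = A) (hs : s * s = 1) (ht : t * t = 1) (hz : z * z = 1)
    (tst : t * s * t = s * z) (hz1 : z ≠ 1) : ∃ a ∈ A, a ≠ 1 ∧ s * a = a * s := by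
  rcases ga1 A hA hs with h | h
  · exact h
  · exfalso
    apply hz1
    have hti : t⁻¹ = t := inv_eq_of_mul_eq_one_left ht
    have hsz : ∀ x ∈ A, (s * z) * x = x⁻¹ * (s * z) := by
      intro x hx
      have hc : t * x * t ∈ A := by
        have := (inferInstance : A.Normal).conj_mem x hx t
        rwa [hti] at this
      have h1 := h _ hc
      have h2 : (t * x * t)⁻¹ = t * x⁻¹ * t := by
        rw [mul_inv_rev, mul_inv_rev, hti, mul_assoc]
      rw [h2] at h1
      rw [← tst]
      calc t * s * t * x = t * s * t * x * (t * t) := by rw [ht, mul_one]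
        _ = t * (s * (t * x * t)) * t := by group
        _ = t * (t * x⁻¹ * t * s) * t := by rw [h1]
        _ = (t * t) * x⁻¹ * (t * s * t) := by group
        _ = x⁻¹ * (t * s * t) := by rw [ht, one_mul]
    have hzc : z ∈ Subgroup.centralizer (A : Set S) := by
      rw [Subgroup.mem_centralizer_iff]
      intro x hx
      have h1 := hsz x hx
      have h2 := h x⁻¹ (A.inv_mem hx)
      rw [inv_inv] at h2
      -- z x = s (s z) x = s x⁻¹ s z = x s s z = x z
      symm
      calc z * x = (s * s) * z * x := by rw [hs, one_mul]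
        _ = s * ((s * z) * x) := by group
        _ = s * (x⁻¹ * (s * z)) := by rw [h1]
        _ = (s * x⁻¹) * (s * z) := by group
        _ = x * s * (s * z) := by rw [h2]
        _ = x * (s * s) * z := by group
        _ = x * z := by rw [hs, mul_one]
    rw [hAC] at hzc
    have h3 := hA.2 z hzc
    calc z = z ^ 3 * (z * z)⁻¹ := by group
      _ = 1 := by rw [h3, hz]; simp

end Cfsg.Agent.Lib.Helper12.N9
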