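import Cfsg.Agent.Lib.Helper12.N9.Defs
import Cfsg.Prelude.Def_Transfer

set_option autoImplicit false

namespace Cfsg.Agent.Lib.Helper12.N9

variable {S : Type*} [Group S] {M : Type*} [AddCommGroup M] [Module (ZMod 2) M]
  {ρ : Representation (ZMod 2) S M} {a b s t z : S}

theorem ga3 [Finite S] (A : Subgroup S) (hA : Cfsg.IsElementaryAbelian 3 A) (hA9 : Nat.card ↥A = 9)
    (hAC : Subgroup.centralizer (A : Set S) = A) (hs : s * s = 1) (hs1 : s ≠ 1)
    (ha : a ∈ A) (ha1 : a ≠ 1) (hsa : s * a = a * s) :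
    ∀ x ∈ A, s * x = x * s → x = 1 ∨ x = a ∨ x = a⁻¹ := by
  classical
  intro x hx hsx
  set C : Subgroup S := A ⊓ Subgroup.centralizer {s} with hC
  have hmem : ∀ y : S, y ∈ C ↔ y ∈ A ∧ s * y = y * s := by
    intro y
    rw [hC, Subgroup.mem_inf, Subgroup.mem_centralizer_iff]
    constructor
    · rintro ⟨h1, h2⟩
      exact ⟨h1, h2 s rfl⟩
    · rintro ⟨h1, h2⟩
      refine ⟨h1, ?_⟩
      intro g hg
      rw [Set.mem_singleton_iff] at hg
      rw [hg]; exact h2
  have hCA : C ≤ A := inf_le_left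
  have hdvd : Nat.card C ∣ 9 := hA9 ▸ Subgroup.card_dvd_of_le hCA
  have hne : Nat.card C ≠ 9 := by
    intro h9
    have hEq : C = A := Subgroup.eq_of_le_of_card_ge hCA (by rw [h9, hA9])
    apply hs1
    have hsA : s ∈ A := by
      rw [← hAC, Subgroup.mem_centralizer_iff]
      intro y hy
      have : y ∈ C := hEq ▸ hy
      exact (((hmem y).1 this).2).symm
    have h3 := hA.2 s hsA
    have : s ^ 3 = s * s * s := by rw [pow_succ, pow_two]
    rw [this, hs, one_mul] at h3
    exact h3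
  have ho : orderOf a = 3 := orderOf_eq_prime (hA.2 a ha) ha1
  have hzle : Subgroup.zpowers a ≤ C := by
    rw [Subgroup.zpowers_le]
    exact (hmem a).2 ⟨ha, hsa⟩
  have hcz : Nat.card (Subgroup.zpowers a) = 3 := by rw [Nat.card_zpowers, ho]
  have hge : 3 ∣ Nat.card C := hcz ▸ Subgroup.card_dvd_of_le hzle
  have hc3 : Nat.card C = 3 := by
    have hle : Nat.card C ≤ 9 := Nat.le_of_dvd (by norm_num) hdvd
    have hpos : 0 < Nat.card C := Nat.card_pos
    interval_cases h : Nat.card C <;> omega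
  have hEq : Subgroup.zpowers a = C := Subgroup.eq_of_le_of_card_ge hzle (by rw [hc3, hcz])
  have hxz : x ∈ Subgroup.zpowers a := hEq ▸ (hmem x).2 ⟨hx, hsx⟩
  rw [mem_zpowers_iff_mem_range_orderOf, ho] at hxz
  simp only [Finset.mem_image, Finset.mem_range] at hxz
  obtain ⟨k, hk, rfl⟩ := hxz
  have ha3 := hA.2 a ha
  interval_cases k
  · left; simp
  · right; left; simp
  · right; right
    rw [eq_inv_iff_mul_eq_one, ← pow_succ]
    exact ha3

end Cfsg.Agent.Lib.Helper12.N9
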