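import Cfsg.Agent.Lib.Helper12.N9.Defs
import Cfsg.Prelude.Def_Transfer

set_option autoImplicit false

namespace Cfsg.Agent.Lib.Helper12.N9

variable {S : Type*} [Group S] {a b s t z : S}

/-- [GA4] the relations, b = t a t ∈ A. -/
theorem ga4 (A : Subgroup S) [A.Normal] (hA : Cfsg.IsElementaryAbelian 3 A)
    (hs : s * s = 1) (ht : t * t = 1) (hz : z * z = 1)
    (zs : z * s = s * z) (zt : z * t = t * z) (tst : t * s * t = s * z) (sts : s * t * s = t * z)
    (ha : a ∈ A) (hsa : s * a = a * s) (hza : z * a = a⁻¹ * z) :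
    Rel a (t * a * t) s t z := by
  have htinv : t⁻¹ = t := inv_eq_of_mul_eq_one_left ht
  have hb : t * a * t ∈ A := by
    have := (inferInstance : A.Normal).conj_mem a ha t
    rwa [htinv] at this
  have binv : (t * a * t)⁻¹ = t * a⁻¹ * t := by
    rw [mul_inv_rev, mul_inv_rev, htinv, mul_assoc]
  have hst : s * t = t * s * z := by
    calc s * t = (t * t) * s * t := by rw [ht, one_mul]
      _ = t * (t * s * t) := by group
      _ = t * (s * z) := by rw [tst]
      _ = t * s * z := by group
  have hsa' : s * a⁻¹ = a⁻¹ * s := (Commute.inv_right (show Commute s a from hsa)).eq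
  refine ⟨hA.2 a ha, hA.2 _ hb, ?_, hs, ht, hz, zs, zt, tst, sts, hsa, ?_, ?_, ?_, hza, ?_⟩
  · have := hA.1.is_comm.comm (⟨a, ha⟩ : A) ⟨_, hb⟩
    exact congrArg Subtype.val this
  · rw [binv]
    calc s * (t * a * t) = (s * t) * a * t := by group
      _ = (t * s * z) * a * t := by rw [hst]
      _ = t * s * (z * a) * t := by group
      _ = t * s * (a⁻¹ * z) * t := by rw [hza]
      _ = t * (s * a⁻¹) * z * t := by group
      _ = t * (a⁻¹ * s) * z * t := by rw [hsa']
      _ = t * a⁻¹ * (s * z) * t := by group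
      _ = t * a⁻¹ * (t * s * t) * t := by rw [tst]
      _ = t * a⁻¹ * t * s * (t * t) := by group
      _ = t * a⁻¹ * t * s := by rw [ht, mul_one]
  · rw [mul_assoc (t * a), ht, mul_one]
  · calc t * (t * a * t) = (t * t) * a * t := by group
      _ = a * t := by rw [ht, one_mul]
  · rw [binv]
    calc z * (t * a * t) = (z * t) * a * t := by group
      _ = (t * z) * a * t := by rw [zt]
      _ = t * (z * a) * t := by group
      _ = t * (a⁻¹ * z) * t := by rw [hza]
      _ = t * a⁻¹ * (z * t) := by group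
      _ = t * a⁻¹ * (t * z) := by rw [zt]
      _ = t * a⁻¹ * t * z := by group

end Cfsg.Agent.Lib.Helper12.N9
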