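import Cfsg.Agent.Lib.Helper12.N9.Defs
import Cfsg.Prelude.Def_Transfer

set_option autoImplicit false

namespace Cfsg.Agent.Lib.Helper12.N9

variable {S : Type*} [Group S] {M : Type*} [AddCommGroup M] [Module (ZMod 2) M]
  {ρ : Representation (ZMod 2) S M} {a b s t z : S}

/-- [GD1] all identities by `decide` in DihedralGroup 4, transported. -/
theorem gd1 (X : Subgroup S) (e : ↥X ≃* DihedralGroup 4) :
    es e ∈ X ∧ et e ∈ X ∧ ez e ∈ X ∧ es e * es e = 1 ∧ et e * et e = 1 ∧ ez e * ez e = 1 ∧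
      ez e * es e = es e * ez e ∧ ez e * et e = et e * ez e ∧
      et e * es e * et e = es e * ez e ∧ es e * et e * es e = et e * ez e ∧ ez e ≠ 1 ∧ es e ≠ 1 := by
  obtain ⟨f, hinj, hs, ht, hz⟩ : ∃ f : DihedralGroup 4 →* S, Function.Injective f ∧
      es e = f (DihedralGroup.sr 0) ∧ et e = f (DihedralGroup.sr 1) ∧ ez e = f (DihedralGroup.r 2) :=
    ⟨X.subtype.comp e.symm.toMonoidHom, X.subtype_injective.comp e.symm.injective, rfl, rfl, rfl⟩
  refine ⟨(e.symm _).2, (e.symm _).2, (e.symm _).2, ?_, ?_, ?_, ?_, ?_, ?_, ?_, ?_, ?_⟩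
  · rw [hs, ← map_mul, ← map_one f]; exact congrArg f (by decide)
  · rw [ht, ← map_mul, ← map_one f]; exact congrArg f (by decide)
  · rw [hz, ← map_mul, ← map_one f]; exact congrArg f (by decide)
  · rw [hs, hz, ← map_mul, ← map_mul]; exact congrArg f (by decide)
  · rw [ht, hz, ← map_mul, ← map_mul]; exact congrArg f (by decide)
  · rw [hs, ht, hz, ← map_mul, ← map_mul, ← map_mul]; exact congrArg f (by decide)
  · rw [hs, ht, hz, ← map_mul, ← map_mul, ← map_mul]; exact congrArg f (by decide)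
  · rw [hz, ← map_one f]; exact fun h => absurd (hinj h) (by decide)
  · rw [hs, ← map_one f]; exact fun h => absurd (hinj h) (by decide)

end Cfsg.Agent.Lib.Helper12.N9
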