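import Cfsg.Agent.Lib.Helper12.N9.Defs
import Cfsg.Prelude.Def_Transfer

set_option autoImplicit false

namespace Cfsg.Agent.Lib.Helper12.N9

variable {S : Type*} [Group S] {M : Type*} [AddCommGroup M] [Module (ZMod 2) M]
  {ρ : Representation (ZMod 2) S M} {a b s t z : S}

theorem gd2_top : Subgroup.closure {(DihedralGroup.sr 0 : DihedralGroup 4), DihedralGroup.sr 1} = ⊤ := by
  rw [eq_top_iff]
  intro x _
  have h0 : (DihedralGroup.sr 0 : DihedralGroup 4) ∈
      Subgroup.closure {(DihedralGroup.sr 0 : DihedralGroup 4), DihedralGroup.sr 1} :=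
    Subgroup.subset_closure (by simp)
  have h1 : (DihedralGroup.sr 1 : DihedralGroup 4) ∈
      Subgroup.closure {(DihedralGroup.sr 0 : DihedralGroup 4), DihedralGroup.sr 1} :=
    Subgroup.subset_closure (by simp)
  have hr1 : (DihedralGroup.r 1 : DihedralGroup 4) ∈
      Subgroup.closure {(DihedralGroup.sr 0 : DihedralGroup 4), DihedralGroup.sr 1} := by
    have := Subgroup.mul_mem _ h0 h1
    rwa [show (DihedralGroup.sr 0 * DihedralGroup.sr 1 : DihedralGroup 4) = DihedralGroup.r 1 from by decide]
      at this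
  have hr : ∀ i : ZMod 4, (DihedralGroup.r i : DihedralGroup 4) ∈
      Subgroup.closure {(DihedralGroup.sr 0 : DihedralGroup 4), DihedralGroup.sr 1} := by
    intro i
    have := Subgroup.pow_mem _ hr1 i.val
    rwa [DihedralGroup.r_one_pow, ZMod.natCast_zmod_val] at this
  cases x with
  | r i => exact hr i
  | sr i =>
    have := Subgroup.mul_mem _ h0 (hr i)
    rwa [DihedralGroup.sr_mul_r, zero_add] at this

/-- [GD2] every element of DihedralGroup 4 is a word in sr 0, sr 1. -/
theorem gd2 (X : Subgroup S) (e : ↥X ≃* DihedralGroup 4) : Subgroup.closure {es e, et e} = X := by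
  obtain ⟨f, hrange, hs, ht⟩ : ∃ f : DihedralGroup 4 →* S, f.range = X ∧
      es e = f (DihedralGroup.sr 0) ∧ et e = f (DihedralGroup.sr 1) := by
    refine ⟨X.subtype.comp e.symm.toMonoidHom, ?_, rfl, rfl⟩
    rw [MonoidHom.range_eq_map, ← Subgroup.map_map]
    have : Subgroup.map e.symm.toMonoidHom ⊤ = ⊤ := by
      rw [← MonoidHom.range_eq_map]
      exact MonoidHom.range_eq_top.2 e.symm.surjective
    rw [this, ← MonoidHom.range_eq_map, Subgroup.range_subtype]
  rw [hs, ht, ← Set.image_pair, ← MonoidHom.map_closure, gd2_top, ← MonoidHom.range_eq_map, hrange]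

end Cfsg.Agent.Lib.Helper12.N9
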