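import Cfsg.Agent.Lib.Helper12.N9.Defs
import Cfsg.Prelude.Def_Transfer

set_option autoImplicit false

namespace Cfsg.Agent.Lib.Helper12.N9

variable {S : Type*} [Group S] {M : Type*} [AddCommGroup M] [Module (ZMod 2) M]
  {ρ : Representation (ZMod 2) S M} {a b s t z : S}

open DihedralGroup in
theorem gd3_pair : ∀ dx dy : DihedralGroup 4, dx ^ 2 = 1 → dy ^ 2 = 1 → (dx * dy) ^ 2 = 1 → dx ≠ 1 → dy ≠ 1 →
    dx ≠ dy → ((r 2 = dx ∨ r 2 = dy ∨ r 2 = dx * dy) ∧
      ((sr 0 = dx ∨ sr 0 = dy ∨ sr 0 = dx * dy) ∨ (sr 1 = dx ∨ sr 1 = dy ∨ sr 1 = dx * dy))) := by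
  decide

open DihedralGroup in
theorem gd3_s : ∀ d : DihedralGroup 4, d ^ 2 = 1 → (d * sr 0) ^ 2 = 1 →
    d = 1 ∨ d = r 2 ∨ d = sr 0 ∨ d = sr 0 * r 2 := by
  decide

open DihedralGroup in
theorem gd3_t : ∀ d : DihedralGroup 4, d ^ 2 = 1 → (d * sr 1) ^ 2 = 1 →
    d = 1 ∨ d = r 2 ∨ d = sr 1 ∨ d = sr 1 * r 2 := by
  decide

theorem gd3_two (Q : Subgroup S) (h : Nat.card Q = 4) :
    ∃ x ∈ Q, ∃ y ∈ Q, x ≠ 1 ∧ y ≠ 1 ∧ x ≠ y := by
  have : Finite Q := Nat.finite_of_card_ne_zero (by omega)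
  have := Fintype.ofFinite Q
  have h3 : 2 < Fintype.card Q := by rw [← Nat.card_eq_fintype_card]; omega
  obtain ⟨x, y, w, hxy, hxw, hyw⟩ := Fintype.two_lt_card_iff.mp h3
  by_cases hx : x = 1
  · subst hx
    exact ⟨y, y.2, w, w.2, fun h => hxy (Subtype.ext h).symm, fun h => hxw (Subtype.ext h).symm,
      fun h => hyw (Subtype.ext h)⟩
  · by_cases hy : y = 1
    · subst hy
      exact ⟨x, x.2, w, w.2, fun h => hx (Subtype.ext h), fun h => hyw (Subtype.ext h).symm,
        fun h => hxw (Subtype.ext h)⟩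
    · exact ⟨x, x.2, y, y.2, fun h => hx (Subtype.ext h), fun h => hy (Subtype.ext h),
        fun h => hxy (Subtype.ext h)⟩

/-- [GD3] -/
theorem gd3 (X : Subgroup S) (e : ↥X ≃* DihedralGroup 4) (B : Subgroup S) (hBX : B ≤ X) (hB4 : Nat.card ↥B = 4)
    (hB2 : ∀ x ∈ B, x ^ 2 = 1) :
    B = Subgroup.closure {ez e, es e} ∨ B = Subgroup.closure {ez e, et e} := by
  have hmul : ∀ d d' : DihedralGroup 4, ((e.symm d : ↥X) : S) ∈ B → ((e.symm d' : ↥X) : S) ∈ B →
      ((e.symm (d * d') : ↥X) : S) ∈ B := by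
    intro d d' h h'
    rw [map_mul, Subgroup.coe_mul]
    exact B.mul_mem h h'
  have hsq : ∀ d : DihedralGroup 4, ((e.symm d : ↥X) : S) ∈ B → d ^ 2 = 1 := by
    intro d h
    have h1 : (e.symm d) ^ 2 = 1 := Subtype.ext (by simpa using hB2 _ h)
    have h2 := congrArg e h1
    rwa [map_pow, e.apply_symm_apply, map_one] at h2
  have hback : ∀ w (hw : w ∈ B), ((e.symm (e ⟨w, hBX hw⟩) : ↥X) : S) = w := by
    intro w hw
    rw [e.symm_apply_apply]
  obtain ⟨x, hx, y, hy, hx1, hy1, hxy⟩ := gd3_two B hB4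
  have Px : ((e.symm (e ⟨x, hBX hx⟩) : ↥X) : S) ∈ B := by rw [hback x hx]; exact hx
  have Py : ((e.symm (e ⟨y, hBX hy⟩) : ↥X) : S) ∈ B := by rw [hback y hy]; exact hy
  have hne1 : ∀ w (hw : w ∈ B), w ≠ 1 → e ⟨w, hBX hw⟩ ≠ 1 := by
    intro w hw hw1 h
    apply hw1
    have := hback w hw
    rw [h, map_one] at this
    exact this.symm
  have hnexy : e ⟨x, hBX hx⟩ ≠ e ⟨y, hBX hy⟩ := by
    intro h
    exact hxy (congrArg Subtype.val (e.injective h))
  obtain ⟨hz, hst⟩ := gd3_pair _ _ (hsq _ Px) (hsq _ Py) (hsq _ (hmul _ _ Px Py)) (hne1 x hx hx1) (hne1 y hy hy1)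
    hnexy
  have Pz : ez e ∈ B := by
    unfold ez
    rcases hz with h | h | h <;> rw [h]
    · exact Px
    · exact Py
    · exact hmul _ _ Px Py
  rcases hst with hs | ht
  · left
    have Ps : es e ∈ B := by
      unfold es
      rcases hs with h | h | h <;> rw [h]
      · exact Px
      · exact Py
      · exact hmul _ _ Px Py
    apply le_antisymm
    · intro w hw
      have Pw : ((e.symm (e ⟨w, hBX hw⟩) : ↥X) : S) ∈ B := by rw [hback w hw]; exact hw
      have hzc : ez e ∈ Subgroup.closure {ez e, es e} := Subgroup.subset_closure (by simp)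
      have hsc : es e ∈ Subgroup.closure {ez e, es e} := Subgroup.subset_closure (by simp)
      rw [← hback w hw]
      rcases gd3_s _ (hsq _ Pw) (hsq _ (hmul _ _ Pw Ps)) with h | h | h | h <;> rw [h]
      · rw [map_one]; exact Subgroup.one_mem _
      · exact hzc
      · exact hsc
      · rw [map_mul, Subgroup.coe_mul]; exact Subgroup.mul_mem _ hsc hzc
    · rw [Subgroup.closure_le]
      rintro w (rfl | rfl)
      · exact Pz
      · exact Ps
  · right
    have Pt : et e ∈ B := by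
      unfold et
      rcases ht with h | h | h <;> rw [h]
      · exact Px
      · exact Py
      · exact hmul _ _ Px Py
    apply le_antisymm
    · intro w hw
      have Pw : ((e.symm (e ⟨w, hBX hw⟩) : ↥X) : S) ∈ B := by rw [hback w hw]; exact hw
      have hzc : ez e ∈ Subgroup.closure {ez e, et e} := Subgroup.subset_closure (by simp)
      have hsc : et e ∈ Subgroup.closure {ez e, et e} := Subgroup.subset_closure (by simp)
      rw [← hback w hw]
      rcases gd3_t _ (hsq _ Pw) (hsq _ (hmul _ _ Pw Pt)) with h | h | h | h <;> rw [h]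
      · rw [map_one]; exact Subgroup.one_mem _
      · exact hzc
      · exact hsc
      · rw [map_mul, Subgroup.coe_mul]; exact Subgroup.mul_mem _ hsc hzc
    · rw [Subgroup.closure_le]
      rintro w (rfl | rfl)
      · exact Pz
      · exact Pt

end Cfsg.Agent.Lib.Helper12.N9
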