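import Cfsg.Agent.Lib.Helper12.N9.Defs
import Cfsg.Prelude.Def_Transfer

set_option autoImplicit false

namespace Cfsg.Agent.Lib.Helper12.N9

variable {S : Type*} [Group S] {M : Type*} [AddCommGroup M] [Module (ZMod 2) M]
  {ρ : Representation (ZMod 2) S M} {a b s t z : S}

/-- membership predicate of the four-group `{1, r 2, sr i, sr (i+2)}` -/
def gd4P (i : ZMod 4) (x : DihedralGroup 4) : Prop :=
  x = 1 ∨ x = DihedralGroup.r 2 ∨ x = DihedralGroup.sr i ∨ x = DihedralGroup.sr (i + 2)

instance gd4P_dec (i : ZMod 4) (x : DihedralGroup 4) : Decidable (gd4P i x) := by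
  unfold gd4P; infer_instance

set_option maxRecDepth 100000 in
theorem gd4_mul : ∀ (i : ZMod 4) (x y : DihedralGroup 4), gd4P i x → gd4P i y → gd4P i (x * y) := by
  decide

set_option maxRecDepth 100000 in
theorem gd4_inv : ∀ (i : ZMod 4) (x : DihedralGroup 4), gd4P i x → gd4P i x⁻¹ := by
  decide

set_option maxRecDepth 100000 in
theorem gd4_sq : ∀ (i : ZMod 4) (x : DihedralGroup 4), gd4P i x → x ^ 2 = 1 := by
  decide

set_option maxRecDepth 100000 in
theorem gd4_card : ∀ (i : ZMod 4), Fintype.card {x : DihedralGroup 4 // gd4P i x} = 4 := by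
  decide

/-- the four-group as a subgroup -/
def gd4K (i : ZMod 4) : Subgroup (DihedralGroup 4) where
  carrier := {x | gd4P i x}
  mul_mem' := fun {x y} hx hy => gd4_mul i x y hx hy
  one_mem' := Or.inl rfl
  inv_mem' := fun {x} hx => gd4_inv i x hx

theorem gd4_closure (i : ZMod 4) :
    Subgroup.closure {(DihedralGroup.r 2 : DihedralGroup 4), DihedralGroup.sr i} = gd4K i := by
  apply le_antisymm
  · rw [Subgroup.closure_le]
    rintro x (rfl | rfl)
    · exact Or.inr (Or.inl rfl)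
    · exact Or.inr (Or.inr (Or.inl rfl))
  · have h0 : (DihedralGroup.r 2 : DihedralGroup 4) ∈
        Subgroup.closure {(DihedralGroup.r 2 : DihedralGroup 4), DihedralGroup.sr i} :=
      Subgroup.subset_closure (by simp)
    have h1 : (DihedralGroup.sr i : DihedralGroup 4) ∈
        Subgroup.closure {(DihedralGroup.r 2 : DihedralGroup 4), DihedralGroup.sr i} :=
      Subgroup.subset_closure (by simp)
    rintro x (rfl | rfl | rfl | rfl)
    · exact Subgroup.one_mem _
    · exact h0
    · exact h1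
    · have := Subgroup.mul_mem _ h1 h0
      rwa [DihedralGroup.sr_mul_r] at this

theorem gd4_aux (i : ZMod 4) :
    Nat.card ↥(Subgroup.closure {(DihedralGroup.r 2 : DihedralGroup 4), DihedralGroup.sr i}) = 4 ∧
      ∀ x ∈ Subgroup.closure {(DihedralGroup.r 2 : DihedralGroup 4), DihedralGroup.sr i}, x ^ 2 = 1 := by
  rw [gd4_closure]
  refine ⟨?_, fun x hx => gd4_sq i x hx⟩
  have h : Nat.card {x : DihedralGroup 4 // gd4P i x} = 4 := by
    rw [Nat.card_eq_fintype_card]; exact gd4_card i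
  exact h

/-- [GD4] closure {z, s} = {1, z, s, z s}. -/
theorem gd4 (X : Subgroup S) (e : ↥X ≃* DihedralGroup 4) :
    Nat.card ↥(Subgroup.closure {ez e, es e}) = 4 ∧ Nat.card ↥(Subgroup.closure {ez e, et e}) = 4 ∧
      (∀ x ∈ Subgroup.closure {ez e, es e}, x ^ 2 = 1) ∧ (∀ x ∈ Subgroup.closure {ez e, et e}, x ^ 2 = 1) := by
  obtain ⟨f, hinj, hs, ht, hz⟩ : ∃ f : DihedralGroup 4 →* S, Function.Injective f ∧
      es e = f (DihedralGroup.sr 0) ∧ et e = f (DihedralGroup.sr 1) ∧ ez e = f (DihedralGroup.r 2) :=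
    ⟨X.subtype.comp e.symm.toMonoidHom, X.subtype_injective.comp e.symm.injective, rfl, rfl, rfl⟩
  have key : ∀ i : ZMod 4,
      Nat.card ↥(Subgroup.closure {f (DihedralGroup.r 2), f (DihedralGroup.sr i)}) = 4 ∧
      ∀ x ∈ Subgroup.closure {f (DihedralGroup.r 2), f (DihedralGroup.sr i)}, x ^ 2 = 1 := by
    intro i
    rw [← Set.image_pair, ← MonoidHom.map_closure]
    refine ⟨?_, ?_⟩
    · rw [Subgroup.card_map_of_injective hinj]; exact (gd4_aux i).1
    · rintro _ ⟨y, hy, rfl⟩
      rw [← map_pow, (gd4_aux i).2 y hy, map_one]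
  rw [hs, ht, hz]
  exact ⟨(key 0).1, (key 1).1, (key 0).2, (key 1).2⟩

end Cfsg.Agent.Lib.Helper12.N9
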