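import Cfsg.Agent.Lib.Helper12.N9.Defs
import Cfsg.Prelude.Def_Transfer

set_option autoImplicit false

namespace Cfsg.Agent.Lib.Helper12.N9

variable {S : Type*} [Group S] {M : Type*} [AddCommGroup M] [Module (ZMod 2) M]
  {ρ : Representation (ZMod 2) S M} {a b s t z : S}

/-- an element of order 3: the members of `zpowers a`. -/
theorem gen_mem_zpowers {a x : S} (ha3 : a ^ 3 = 1) (ha1 : a ≠ 1) (hx : x ∈ Subgroup.zpowers a) :
    x = 1 ∨ x = a ∨ x = a⁻¹ := by
  classical
  have ho : orderOf a = 3 := orderOf_eq_prime ha3 ha1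
  have hfin : IsOfFinOrder a := isOfFinOrder_iff_pow_eq_one.mpr ⟨3, by norm_num, ha3⟩
  rw [← hfin.mem_powers_iff_mem_zpowers, hfin.mem_powers_iff_mem_range_orderOf, ho] at hx
  have h2 : a ^ 2 = a⁻¹ := by
    rw [eq_inv_iff_mul_eq_one, ← pow_succ]; exact ha3
  simp only [Finset.mem_image, Finset.mem_range] at hx
  obtain ⟨k, hk, rfl⟩ := hx
  interval_cases k
  · left; simp
  · right; left; simp
  · right; right; exact h2

/-- a subgroup of a group of order 9 properly containing a subgroup of order 3 is everything. -/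
theorem gen_card [Finite S] (A K : Subgroup S) (hA9 : Nat.card ↥A = 9) (hK : K ≤ A) {a : S}
    (ha3 : a ^ 3 = 1) (ha1 : a ≠ 1) (haK : a ∈ K) : K = Subgroup.zpowers a ∨ K = A := by
  have ho : orderOf a = 3 := orderOf_eq_prime ha3 ha1
  have hz : Subgroup.zpowers a ≤ K := by
    rw [Subgroup.zpowers_le]; exact haK
  have hzc : Nat.card ↥(Subgroup.zpowers a) = 3 := by rw [Nat.card_zpowers, ho]
  have hd : Nat.card ↥K ∣ 9 := hA9 ▸ Subgroup.card_dvd_of_le hK
  have hd3 : 3 ∣ Nat.card ↥K := hzc ▸ Subgroup.card_dvd_of_le hz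
  have hle : Nat.card ↥K ≤ 9 := Nat.le_of_dvd (by norm_num) hd
  have h39 : Nat.card ↥K = 3 ∨ Nat.card ↥K = 9 := by
    generalize Nat.card ↥K = n at *
    interval_cases n <;> omega
  rcases h39 with h | h
  · left
    exact (Subgroup.eq_of_le_of_card_ge hz (by rw [h, hzc])).symm
  · right
    exact Subgroup.eq_of_le_of_card_ge hK (by rw [h, hA9])

/-- [GEN] b ∉ zpowers a, so closure {a,b} ≤ A has order > 3 dividing 9. -/
theorem gen [Finite S] (A X : Subgroup S) (hA9 : Nat.card ↥A = 9) (hAX : A ⊔ X = ⊤) (R : Rel a b s t z)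
    (ha : a ∈ A) (hb : b ∈ A) (ha1 : a ≠ 1) (hX : Subgroup.closure {s, t} = X) :
    Subgroup.closure {a, b} = A ∧ Subgroup.closure {a, b, s, t} = ⊤ := by
  have hK : Subgroup.closure {a, b} ≤ A := by
    rw [Subgroup.closure_le]
    intro x hx
    rcases hx with rfl | rfl
    · exact ha
    · exact hb
  have haK : a ∈ Subgroup.closure {a, b} := Subgroup.subset_closure (by simp)
  have hbK : b ∈ Subgroup.closure {a, b} := Subgroup.subset_closure (by simp)
  have h1 : Subgroup.closure {a, b} = A := by
    rcases gen_card A _ hA9 hK R.a3 ha1 haK with h | h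
    · exfalso
      have hbz : b ∈ Subgroup.zpowers a := h ▸ hbK
      have hsb : s * b = b * s := by
        rcases gen_mem_zpowers R.a3 ha1 hbz with h | h | h
        · rw [h]; simp
        · rw [h]; exact R.sa
        · rw [h]
          have := R.sa
          calc s * a⁻¹ = a⁻¹ * (a * s) * a⁻¹ := by group
            _ = a⁻¹ * (s * a) * a⁻¹ := by rw [this]
            _ = a⁻¹ * s := by group
      have hbb : b = b⁻¹ := by
        have := R.sb
        rw [hsb] at this
        exact mul_right_cancel this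
      have hb1 : b = 1 := by
        have h3 := R.b3
        calc b = b ^ 3 * (b⁻¹ * b⁻¹) := by group
          _ = b ^ 3 * (b * b⁻¹) := by rw [← hbb]
          _ = 1 := by rw [h3]; simp
      apply ha1
      have := R.ta
      rw [hb1, one_mul] at this
      simpa using this
    · exact h
  refine ⟨h1, ?_⟩
  rw [eq_top_iff, ← hAX, ← h1, ← hX, sup_le_iff]
  constructor
  · apply Subgroup.closure_mono
    intro x hx
    rcases hx with rfl | rfl <;> simp
  · apply Subgroup.closure_mono
    intro x hx
    rcases hx with rfl | rfl <;> simp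

end Cfsg.Agent.Lib.Helper12.N9
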