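import Cfsg.Agent.Lib.Helper12.N9.Defs
import Cfsg.Agent.Lib.Helper12.N9.C3
import Cfsg.Prelude.Def_Transfer

set_option autoImplicit false

namespace Cfsg.Agent.Lib.Helper12.N9

variable {S : Type*} [Group S] {M : Type*} [AddCommGroup M] [Module (ZMod 2) M]
  {ρ : Representation (ZMod 2) S M} {a b s t z : S}

theorem h0_mul (g h : S) (m : M) : ρ g (ρ h m) = ρ (g * h) m := by
  rw [map_mul]; rfl

theorem h0_inv (g : S) (m : M) (h : ρ g m = m) : ρ g⁻¹ m = m := by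
  conv_lhs => rw [← h]
  rw [h0_mul, inv_mul_cancel, map_one]; rfl

/-- [H0] C_M(a,b) is stable under a, b (trivially), s, t (relations): c3; irreducible: ⊥ or ⊤; ⊤ gives ρ a = 1 = ρ 1. -/
theorem h0 (R : Rel a b s t z) (hgen : Subgroup.closure {a, b, s, t} = ⊤) (hfaith : Function.Injective ρ)
    (hirr : ∀ N : Submodule (ZMod 2) M, (∀ g : S, ∀ m ∈ N, ρ g m ∈ N) → N = ⊥ ∨ N = ⊤) (ha1 : a ≠ 1) :
    ∀ m : M, ρ a m = m → ρ b m = m → m = 0 := by
  let N : Submodule (ZMod 2) M :=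
    { carrier := {m | ρ a m = m ∧ ρ b m = m}
      add_mem' := by
        rintro x y ⟨h1, h2⟩ ⟨h3, h4⟩
        exact ⟨by rw [map_add, h1, h3], by rw [map_add, h2, h4]⟩
      zero_mem' := ⟨map_zero _, map_zero _⟩
      smul_mem' := by
        rintro c x ⟨h1, h2⟩
        exact ⟨by rw [map_smul, h1], by rw [map_smul, h2]⟩ }
  have hN : ∀ m, m ∈ N ↔ (ρ a m = m ∧ ρ b m = m) := fun m => Iff.rfl
  have hbs : b * s = s * b⁻¹ := by
    have := R.sb
    calc b * s = b * (s * b) * b⁻¹ := by group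
      _ = b * (b⁻¹ * s) * b⁻¹ := by rw [this]
      _ = s * b⁻¹ := by group
  have hst : ∀ g : S, ∀ m ∈ N, ρ g m ∈ N := by
    apply c3 R hgen N
    · rintro m ⟨h1, h2⟩
      exact (hN _).2 ⟨by rw [h1, h1], by rw [h1, h2]⟩
    · rintro m ⟨h1, h2⟩
      exact (hN _).2 ⟨by rw [h2, h1], by rw [h2, h2]⟩
    · rintro m ⟨h1, h2⟩
      refine (hN _).2 ⟨?_, ?_⟩
      · rw [h0_mul, ← R.sa, ← h0_mul, h1]
      · rw [h0_mul, hbs, ← h0_mul, h0_inv b m h2]
    · rintro m ⟨h1, h2⟩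
      refine (hN _).2 ⟨?_, ?_⟩
      · rw [h0_mul, ← R.tb, ← h0_mul, h2]
      · rw [h0_mul, ← R.ta, ← h0_mul, h1]
  intro m h1 h2
  rcases hirr N hst with h | h
  · have : m ∈ N := (hN m).2 ⟨h1, h2⟩
    rw [h] at this
    simpa using this
  · exfalso
    apply ha1
    apply hfaith
    rw [map_one]
    ext x
    have : x ∈ N := by rw [h]; trivial
    exact ((hN x).1 this).1

end Cfsg.Agent.Lib.Helper12.N9
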