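import Cfsg.Agent.Lib.Helper12.N9.Defs
import Cfsg.Prelude.Def_Transfer

/-! Mini-ladder N9 (S4407), rung NID. -/

set_option autoImplicit false

namespace Cfsg.Agent.Lib.Helper12.N9

variable {S : Type*} [Group S] {M : Type*} [AddCommGroup M] [Module (ZMod 2) M]
  {ρ : Representation (ZMod 2) S M} {a b s t z : S}

theorem nid_mul (g h : S) (x : M) : ρ (g * h) x = ρ g (ρ h x) := by
  rw [map_mul, Module.End.mul_apply]

theorem nid_fix3 (g : S) (hg : g ^ 3 = 1) (x : M) :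
    ρ g (x + ρ g x + ρ g (ρ g x)) = x + ρ g x + ρ g (ρ g x) := by
  have h3 : ρ g (ρ g (ρ g x)) = x := by
    rw [← nid_mul, ← nid_mul, ← pow_two, ← pow_succ, hg, map_one, Module.End.one_apply]
  rw [map_add, map_add, h3]
  abel

theorem nid (R : Rel a b s t z) (h0 : ∀ m : M, ρ a m = m → ρ b m = m → m = 0) (hM : Nontrivial M) :
    (∃ m : M, m ≠ 0 ∧ ρ a m = m) ∨ (∃ m : M, m ≠ 0 ∧ ρ (a * b) m = m) := by
  by_contra hcon
  rw [not_or] at hcon
  obtain ⟨hc1, hc2⟩ := hcon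
  have ha : ∀ x : M, ρ a x = x → x = 0 := by
    intro x hx
    by_contra hx0
    exact hc1 ⟨x, hx0, hx⟩
  have hab : ∀ x : M, ρ (a * b) x = x → x = 0 := by
    intro x hx
    by_contra hx0
    exact hc2 ⟨x, hx0, hx⟩
  have hb : ∀ x : M, ρ b x = x → x = 0 := by
    intro x hx
    have h1 : ρ a (ρ t x) = ρ t x := by
      rw [← nid_mul, ← R.tb, nid_mul, hx]
    have h2 := ha _ h1
    have h3 : ρ t (ρ t x) = x := by
      rw [← nid_mul, R.t2, map_one, Module.End.one_apply]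
    rw [← h3, h2, map_zero]
  have hbinv : b⁻¹ = b * b := by
    apply inv_eq_of_mul_eq_one_right
    rw [← R.b3, pow_succ, pow_two, mul_assoc]
  have hsb' : s * b⁻¹ = b * s := by
    have := R.sb
    calc s * b⁻¹ = b * (b⁻¹ * s) * b⁻¹ := by group
      _ = b * (s * b) * b⁻¹ := by rw [this]
      _ = b * s := by group
  have hab' : ∀ x : M, ρ (a * b⁻¹) x = x → x = 0 := by
    intro x hx
    have h1 : ρ (a * b) (ρ s x) = ρ s x := by
      have e : a * b * s = s * (a * b⁻¹) := by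
        rw [mul_assoc, ← hsb', ← mul_assoc, ← R.sa, mul_assoc]
      rw [← nid_mul, e, nid_mul, hx]
    have h2 := hab _ h1
    have h3 : ρ s (ρ s x) = x := by
      rw [← nid_mul, R.s2, map_one, Module.End.one_apply]
    rw [← h3, h2, map_zero]
  obtain ⟨m, hm⟩ := exists_ne (0 : M)
  apply hm
  have hcomm : ∀ x : M, ρ b (ρ a x) = ρ a (ρ b x) := by
    intro x
    rw [← nid_mul, ← R.ab, nid_mul]
  have hb3 : ∀ x : M, ρ b (ρ b (ρ b x)) = x := by
    intro x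
    rw [← nid_mul, ← nid_mul, ← pow_two, ← pow_succ, R.b3, map_one, Module.End.one_apply]
  have e1 := ha _ (nid_fix3 (ρ := ρ) a R.a3 m)
  have e2 := hb _ (nid_fix3 (ρ := ρ) b R.b3 m)
  have e3 := hab _ (nid_fix3 (ρ := ρ) (a * b) (by
    rw [(show Commute a b from R.ab).mul_pow, R.a3, R.b3, one_mul]) m)
  have e4 := hab' _ (nid_fix3 (ρ := ρ) (a * b⁻¹) (by
    rw [((show Commute a b from R.ab).inv_right).mul_pow, R.a3, inv_pow, R.b3, inv_one, one_mul]) m)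
  have e2a := congrArg (ρ a) e2
  have e2aa := congrArg (ρ a) e2a
  rw [hbinv] at e4
  simp only [nid_mul, map_add, map_zero, hcomm, hb3] at e1 e2 e3 e4 e2a e2aa
  have key : m + 2 • (m + ρ a m + ρ a (ρ a m) + ρ a (ρ b m) + ρ a (ρ a (ρ b (ρ b m)))
      + ρ a (ρ b (ρ b m)) + ρ a (ρ a (ρ b m))) = 0 := by
    have h : m + 2 • (m + ρ a m + ρ a (ρ a m) + ρ a (ρ b m) + ρ a (ρ a (ρ b (ρ b m)))
        + ρ a (ρ b (ρ b m)) + ρ a (ρ a (ρ b m))) =
        (m + ρ a m + ρ a (ρ a m)) + (m + ρ a (ρ b m) + ρ a (ρ a (ρ b (ρ b m))))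
        + (m + ρ a (ρ b (ρ b m)) + ρ a (ρ a (ρ b m)))
        + (ρ a m + ρ a (ρ b m) + ρ a (ρ b (ρ b m)))
        + (ρ a (ρ a m) + ρ a (ρ a (ρ b m)) + ρ a (ρ a (ρ b (ρ b m)))) := by abel
    rw [h, e1, e3, e4, e2a, e2aa]
    simp
  rwa [ZModModule.char_nsmul_eq_zero, add_zero] at key

end Cfsg.Agent.Lib.Helper12.N9
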