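import Cfsg.Agent.Lib.Helper12.N9.Defs
import Cfsg.Prelude.Def_Transfer
import Cfsg.Agent.Lib.Helper12.N9.ACT
import Cfsg.Agent.Lib.Helper12.N9.C3

set_option autoImplicit false

namespace Cfsg.Agent.Lib.Helper12.N9

variable {S : Type*} [Group S] {M : Type*} [AddCommGroup M] [Module (ZMod 2) M]
  {ρ : Representation (ZMod 2) S M} {a b s t z : S}

/-- the set of combinations of four vectors, as a submodule. -/
def spanSub (w₁ w₂ w₃ w₄ : M) : Submodule (ZMod 2) M where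
  carrier := {m | ∃ c₁ c₂ c₃ c₄ : ZMod 2, m = c₁ • w₁ + c₂ • w₂ + c₃ • w₃ + c₄ • w₄}
  add_mem' := by
    rintro _ _ ⟨c₁, c₂, c₃, c₄, rfl⟩ ⟨d₁, d₂, d₃, d₄, rfl⟩
    exact ⟨c₁ + d₁, c₂ + d₂, c₃ + d₃, c₄ + d₄, by module⟩
  zero_mem' := ⟨0, 0, 0, 0, by simp⟩
  smul_mem' := by
    rintro k _ ⟨c₁, c₂, c₃, c₄, rfl⟩
    exact ⟨k * c₁, k * c₂, k * c₃, k * c₄, by module⟩

/-- [SPAN] the span of w, b w, t w, t b w is stable under the generators (act), so it is ⊤ (c3, hirr, w ≠ 0). -/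
theorem span_top (R : Rel a b s t z) (hgen : Subgroup.closure {a, b, s, t} = ⊤)
    (hirr : ∀ N : Submodule (ZMod 2) M, (∀ g : S, ∀ m ∈ N, ρ g m ∈ N) → N = ⊥ ∨ N = ⊤)
    {w : M} (hw : w ≠ 0) (haw : ρ a w = w) (hsw : ρ s w = w) (hzw : ρ z w = w)
    (hbb : ρ b (ρ b w) = w + ρ b w) :
    ∀ m : M, ∃ c₁ c₂ c₃ c₄ : ZMod 2, m = c₁ • w + c₂ • ρ b w + c₃ • ρ t w + c₄ • ρ t (ρ b w) := by
  obtain ⟨e1, e2, e3, e4, e5, e6, e7, e8, e9, e10, -, -, -⟩ := act R haw hsw hzw hbb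
  have hst : ∀ g : S, ∀ m ∈ spanSub w (ρ b w) (ρ t w) (ρ t (ρ b w)),
      ρ g m ∈ spanSub w (ρ b w) (ρ t w) (ρ t (ρ b w)) := by
    apply c3 R hgen
    · rintro _ ⟨c₁, c₂, c₃, c₄, rfl⟩
      refine ⟨c₁, c₂, c₄, c₃ + c₄, ?_⟩
      simp only [map_add, map_smul, haw, e1, e2, e3]
      module
    · rintro _ ⟨c₁, c₂, c₃, c₄, rfl⟩
      refine ⟨c₂, c₁ + c₂, c₃, c₄, ?_⟩
      simp only [map_add, map_smul, hbb, e4, e5]
      module
    · rintro _ ⟨c₁, c₂, c₃, c₄, rfl⟩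
      refine ⟨c₁ + c₂, c₂, c₃, c₄, ?_⟩
      simp only [map_add, map_smul, hsw, e6, e7, e8]
      module
    · rintro _ ⟨c₁, c₂, c₃, c₄, rfl⟩
      refine ⟨c₃, c₄, c₁, c₂, ?_⟩
      simp only [map_add, map_smul, e9, e10]
      module
  have hwN : w ∈ spanSub w (ρ b w) (ρ t w) (ρ t (ρ b w)) := ⟨1, 0, 0, 0, by simp⟩
  rcases hirr _ hst with h | h
  · rw [h] at hwN
    exact absurd (by simpa using hwN) hw
  · intro m
    have : m ∈ spanSub w (ρ b w) (ρ t w) (ρ t (ρ b w)) := by rw [h]; trivial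
    exact this

end Cfsg.Agent.Lib.Helper12.N9
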