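import Cfsg.Agent.Lib.Helper12.N9.Defs
import Cfsg.Prelude.Def_Transfer

set_option autoImplicit false

namespace Cfsg.Agent.Lib.Helper12.N9

variable {S : Type*} [Group S] {a b s t z : S}

theorem swg (R : Rel a b s t z) (hgen : Subgroup.closure {a, b, s, t} = ⊤) (ha1 : a ≠ 1) :
    Subgroup.closure {a * b, a * b⁻¹, t, s} = ⊤ ∧ a * b ≠ 1 := by
  constructor
  · rw [eq_top_iff, ← hgen, Subgroup.closure_le]
    have m1 : a * b ∈ Subgroup.closure {a * b, a * b⁻¹, t, s} :=
      Subgroup.subset_closure (by simp)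
    have m2 : a * b⁻¹ ∈ Subgroup.closure {a * b, a * b⁻¹, t, s} :=
      Subgroup.subset_closure (by simp)
    have m3 : t ∈ Subgroup.closure {a * b, a * b⁻¹, t, s} :=
      Subgroup.subset_closure (by simp)
    have m4 : s ∈ Subgroup.closure {a * b, a * b⁻¹, t, s} :=
      Subgroup.subset_closure (by simp)
    have e1 : a * b * (a * b⁻¹) = a⁻¹ := by
      have h1 : a * b * (a * b⁻¹) = a * (b * a) * b⁻¹ := by group
      rw [h1, ← R.ab]
      have h2 : a * (a * b) * b⁻¹ = a ^ 3 * a⁻¹ := by
        rw [pow_succ, pow_two]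
        group
      rw [h2, R.a3, one_mul]
    have ma' : a⁻¹ ∈ Subgroup.closure {a * b, a * b⁻¹, t, s} := e1 ▸ mul_mem m1 m2
    have ma : a ∈ Subgroup.closure {a * b, a * b⁻¹, t, s} := by
      have := inv_mem ma'
      rwa [inv_inv] at this
    have mb : b ∈ Subgroup.closure {a * b, a * b⁻¹, t, s} := by
      have := mul_mem ma' m1
      rwa [inv_mul_cancel_left] at this
    rintro g (rfl | rfl | rfl | rfl)
    · exact ma
    · exact mb
    · exact m4
    · exact m3
  · intro hab
    apply ha1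
    have hb : b = a⁻¹ := (eq_inv_of_mul_eq_one_right hab)
    have h1 := R.sb
    rw [hb, inv_inv] at h1
    -- s * a⁻¹ = a * s, and s * a = a * s
    have h2 : s * a⁻¹ = a⁻¹ * s := by
      have := R.sa
      calc s * a⁻¹ = a⁻¹ * (a * s) * a⁻¹ := by group
        _ = a⁻¹ * (s * a) * a⁻¹ := by rw [this]
        _ = a⁻¹ * s := by group
    rw [h2] at h1
    have h3 : a⁻¹ = a := mul_right_cancel h1
    have h4 : a * a = 1 := by
      nth_rewrite 1 [← h3]
      exact inv_mul_cancel a
    have h5 := R.a3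
    rw [pow_succ, pow_two, h4, one_mul] at h5
    exact h5

end Cfsg.Agent.Lib.Helper12.N9
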