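import Cfsg.Agent.Lib.Helper12.N9.Defs
import Cfsg.Agent.Lib.Helper12.N9.GA3
import Cfsg.Prelude.Def_Transfer

set_option autoImplicit false

namespace Cfsg.Agent.Lib.Helper12.N9

variable {S : Type*} [Group S] {M : Type*} [AddCommGroup M] [Module (ZMod 2) M]
  {ρ : Representation (ZMod 2) S M} {a b s t z : S}

theorem za_conj_mem (A : Subgroup S) [A.Normal] {g x : S} (hg : g * g = 1) (hx : x ∈ A) :
    g * x * g ∈ A := by
  have h := (inferInstance : A.Normal).conj_mem x hx g
  have hinv : g⁻¹ = g := inv_eq_of_mul_eq_one_left hg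
  rwa [hinv] at h

theorem za_eq_one {v : S} (h2 : v * v = 1) (h3 : v ^ 3 = 1) : v = 1 := by
  have : v ^ 3 = v * v * v := by rw [pow_succ, pow_two]
  rw [this, h2, one_mul] at h3
  exact h3

theorem za_exists_outside [Finite S] (A : Subgroup S) (hA9 : Nat.card ↥A = 9) (a : S) :
    ∃ x ∈ A, x ≠ 1 ∧ x ≠ a ∧ x ≠ a⁻¹ := by
  classical
  by_contra hcon
  push Not at hcon
  have hsub : (A : Set S) ⊆ (({1, a, a⁻¹} : Finset S) : Set S) := by
    intro x hx
    by_cases h1 : x = 1
    · simp [h1]
    by_cases h2 : x = a
    · simp [h2]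
    have := hcon x hx h1 h2
    simp [this]
  have h1 : (A : Set S).ncard ≤ (({1, a, a⁻¹} : Finset S) : Set S).ncard :=
    Set.ncard_le_ncard hsub (Finset.finite_toSet _)
  rw [Set.ncard_coe_finset] at h1
  have h2 : ({1, a, a⁻¹} : Finset S).card ≤ 3 := Finset.card_le_three
  have h3 : (A : Set S).ncard = Nat.card A := rfl
  omega

theorem za [Finite S] (A : Subgroup S) [A.Normal] (hA : Cfsg.IsElementaryAbelian 3 A) (hA9 : Nat.card ↥A = 9)
    (hAC : Subgroup.centralizer (A : Set S) = A) (hs : s * s = 1) (ht : t * t = 1) (hz : z * z = 1)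
    (zs : z * s = s * z) (zt : z * t = t * z) (tst : t * s * t = s * z)
    (hz1 : z ≠ 1) (hs1 : s ≠ 1) (ha : a ∈ A) (ha1 : a ≠ 1) (hsa : s * a = a * s) :
    z * a = a⁻¹ * z := by
  have comm : ∀ x ∈ A, ∀ y ∈ A, x * y = y * x := by
    intro x hx y hy
    exact congrArg Subtype.val (hA.1.is_comm.comm ⟨x, hx⟩ ⟨y, hy⟩)
  have hc : z * a * z ∈ A := za_conj_mem A hz ha
  have hsc : s * (z * a * z) = z * a * z * s := by
    calc s * (z * a * z) = (s * z) * a * z := by group
      _ = (z * s) * a * z := by rw [zs]
      _ = z * (s * a) * z := by group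
      _ = z * (a * s) * z := by rw [hsa]
      _ = z * a * (s * z) := by group
      _ = z * a * (z * s) := by rw [zs]
      _ = z * a * z * s := by group
  rcases ga3 A hA hA9 hAC hs hs1 ha ha1 hsa _ hc hsc with h | h | h
  · exfalso
    apply ha1
    have : a = z * (z * a * z) * z := by
      calc a = (z * z) * a * (z * z) := by rw [hz]; group
        _ = z * (z * a * z) * z := by group
    rw [this, h, mul_one, hz]
  · exfalso
    have hza : z * a = a * z := by
      calc z * a = z * a * (z * z) := by rw [hz, mul_one]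
        _ = (z * a * z) * z := by group
        _ = a * z := by rw [h]
    -- the conjugate situation
    have hb : t * a * t ∈ A := za_conj_mem A ht ha
    have hb1 : t * a * t ≠ 1 := by
      intro hb1
      apply ha1
      have : a = t * (t * a * t) * t := by
        calc a = (t * t) * a * (t * t) := by rw [ht]; group
          _ = t * (t * a * t) * t := by group
      rw [this, hb1, mul_one, ht]
    have hs'2 : (s * z) * (s * z) = 1 := by
      calc (s * z) * (s * z) = s * (z * s) * z := by group
        _ = s * (s * z) * z := by rw [zs]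
        _ = (s * s) * (z * z) := by group
        _ = 1 := by rw [hs, hz, one_mul]
    have hs'1 : s * z ≠ 1 := by
      intro h1
      apply hs1
      rw [h1] at tst
      calc s = (t * t) * s * (t * t) := by rw [ht]; group
        _ = t * (t * s * t) * t := by group
        _ = 1 := by rw [tst, mul_one, ht]
    have hs'b : (s * z) * (t * a * t) = (t * a * t) * (s * z) := by
      rw [← tst]
      calc t * s * t * (t * a * t) = t * s * (t * t) * a * t := by group
        _ = t * (s * a) * t := by rw [ht]; group
        _ = t * (a * s) * t := by rw [hsa]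
        _ = t * a * (t * t) * s * t := by rw [ht]; group
        _ = t * a * t * (t * s * t) := by group
    have g2 := ga3 A hA hA9 hAC hs'2 hs'1 hb hb1 hs'b
    have hs'a : (s * z) * a = a * (s * z) := by
      calc (s * z) * a = s * (z * a) := by group
        _ = s * (a * z) := by rw [hza]
        _ = (s * a) * z := by group
        _ = (a * s) * z := by rw [hsa]
        _ = a * (s * z) := by group
    have hsb : s * (t * a * t) = (t * a * t) * s := by
      rcases g2 a ha hs'a with h1 | h1 | h1
      · exact absurd h1 ha1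
      · rw [← h1]; exact hsa
      · have : t * a * t = a⁻¹ := (inv_eq_iff_eq_inv.2 h1).symm
        rw [this]
        calc s * a⁻¹ = a⁻¹ * (a * s) * a⁻¹ := by group
          _ = a⁻¹ * (s * a) * a⁻¹ := by rw [hsa]
          _ = a⁻¹ * s := by group
    have H : ∀ x ∈ A, (s * z) * x = x * (s * z) → s * x = x * s := by
      intro x hx hxc
      rcases g2 x hx hxc with h1 | h1 | h1
      · rw [h1]; simp
      · rw [h1]; exact hsb
      · rw [h1]
        calc s * (t * a * t)⁻¹ = (t * a * t)⁻¹ * ((t * a * t) * s) * (t * a * t)⁻¹ := by group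
          _ = (t * a * t)⁻¹ * (s * (t * a * t)) * (t * a * t)⁻¹ := by rw [hsb]
          _ = (t * a * t)⁻¹ * s := by group
    obtain ⟨x, hx, hx1, hxa, hxa'⟩ := za_exists_outside A hA9 a
    set y := x * (s * x⁻¹ * s) with hy
    have hyA : y ∈ A := A.mul_mem hx (za_conj_mem A hs (A.inv_mem hx))
    have hsys : s * y * s = y⁻¹ := by
      rw [hy]
      calc s * (x * (s * x⁻¹ * s)) * s = s * x * (s * x⁻¹ * (s * s)) := by group
        _ = s * x * s * x⁻¹ := by rw [hs]; group
        _ = (x * (s⁻¹ * x⁻¹ * s⁻¹))⁻¹ := by group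
        _ = (x * (s * x⁻¹ * s))⁻¹ := by rw [inv_eq_of_mul_eq_one_left hs]
    have hy1 : y ≠ 1 := by
      intro h1
      have hsx : s * x = x * s := by
        have h2 : x * (s * x⁻¹ * s) = 1 := h1
        calc s * x = (x * (s * x⁻¹ * s)) * s * x := by rw [h2, one_mul]
          _ = x * s * x⁻¹ * (s * s) * x := by group
          _ = x * s := by rw [hs]; group
      rcases ga3 A hA hA9 hAC hs hs1 ha ha1 hsa x hx hsx with h3 | h3 | h3
      · exact hx1 h3
      · exact hxa h3
      · exact hxa' h3
    set v := y * (z * y⁻¹ * z) with hv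
    have hzyA : z * y⁻¹ * z ∈ A := za_conj_mem A hz (A.inv_mem hyA)
    have hvA : v ∈ A := A.mul_mem hyA hzyA
    have hzvz : z * v * z = v⁻¹ := by
      rw [hv]
      calc z * (y * (z * y⁻¹ * z)) * z = z * y * (z * y⁻¹ * (z * z)) := by group
        _ = z * y * z * y⁻¹ := by rw [hz]; group
        _ = (y * (z⁻¹ * y⁻¹ * z⁻¹))⁻¹ := by group
        _ = (y * (z * y⁻¹ * z))⁻¹ := by rw [inv_eq_of_mul_eq_one_left hz]
    have hsy' : s * y⁻¹ * s = y := by
      have : (s * y * s)⁻¹ = s * y⁻¹ * s := by
        have hsi : s⁻¹ = s := inv_eq_of_mul_eq_one_left hs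
        calc (s * y * s)⁻¹ = s⁻¹ * y⁻¹ * s⁻¹ := by group
          _ = s * y⁻¹ * s := by rw [hsi]
      rw [← this, hsys, inv_inv]
    have hsvs : s * v * s = v⁻¹ := by
      have e1 : s * v * s = (s * y * s) * (z * (s * y⁻¹ * s) * z) := by
        rw [hv]
        calc s * (y * (z * y⁻¹ * z)) * s = s * y * ((z * y⁻¹) * (z * s)) := by group
          _ = s * y * ((z * y⁻¹) * (s * z)) := by rw [zs]
          _ = s * y * (s * s) * z * y⁻¹ * s * z := by rw [hs]; group
          _ = s * y * s * ((s * z) * y⁻¹ * s * z) := by group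
          _ = s * y * s * ((z * s) * y⁻¹ * s * z) := by rw [zs]
          _ = (s * y * s) * (z * (s * y⁻¹ * s) * z) := by group
      rw [e1, hsys, hsy']
      have hzyz : z * y * z ∈ A := za_conj_mem A hz hyA
      rw [comm _ (A.inv_mem hyA) _ hzyz, hv]
      have hzi : z⁻¹ = z := inv_eq_of_mul_eq_one_left hz
      calc z * y * z * y⁻¹ = (y * (z⁻¹ * y⁻¹ * z⁻¹))⁻¹ := by group
        _ = (y * (z * y⁻¹ * z))⁻¹ := by rw [hzi]
    have hs'v : (s * z) * v = v * (s * z) := by
      have e2 : s * (z * v * z) * s = v := by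
        rw [hzvz]
        have : (s * v * s)⁻¹ = s * v⁻¹ * s := by
          have hsi : s⁻¹ = s := inv_eq_of_mul_eq_one_left hs
          calc (s * v * s)⁻¹ = s⁻¹ * v⁻¹ * s⁻¹ := by group
            _ = s * v⁻¹ * s := by rw [hsi]
        rw [← this, hsvs, inv_inv]
      calc (s * z) * v = s * (z * v * z) * s * (s * z) := by
            calc (s * z) * v = s * z * v * ((z * z) * (s * s)) := by rw [hz, hs]; group
              _ = s * z * v * z * (z * s) * s := by group
              _ = s * z * v * z * (s * z) * s := by rw [zs]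
              _ = s * (z * v * z) * s * (z * s) := by group
              _ = s * (z * v * z) * s * (s * z) := by rw [zs]
        _ = v * (s * z) := by rw [e2]
    have hsv := H v hvA hs'v
    have hvv : v * v = 1 := by
      have : s * v * s = v := by
        rw [hsv]
        calc v * s * s = v * (s * s) := by group
          _ = v := by rw [hs, mul_one]
      rw [this] at hsvs
      calc v * v = v * v⁻¹ := by rw [← hsvs]
        _ = 1 := mul_inv_cancel v
    have hv1 : v = 1 := za_eq_one hvv (hA.2 v hvA)
    have hzy : z * y = y * z := by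
      have h2 : y * (z * y⁻¹ * z) = 1 := hv1
      calc z * y = (y * (z * y⁻¹ * z)) * z * y := by rw [h2, one_mul]
        _ = y * z * y⁻¹ * (z * z) * y := by group
        _ = y * z := by rw [hz]; group
    rcases ga3 A hA hA9 hAC hz hz1 ha ha1 hza y hyA hzy with h3 | h3 | h3
    · exact hy1 h3
    · -- y = a commutes with s
      have : s * y * s = y := by
        rw [h3, hsa]
        calc a * s * s = a * (s * s) := by group
          _ = a := by rw [hs, mul_one]
      rw [this] at hsys
      have hyy : y * y = 1 := by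
        calc y * y = y * y⁻¹ := by rw [← hsys]
          _ = 1 := mul_inv_cancel y
      exact hy1 (za_eq_one hyy (hA.2 y hyA))
    · have hsai : s * a⁻¹ = a⁻¹ * s := by
        calc s * a⁻¹ = a⁻¹ * (a * s) * a⁻¹ := by group
          _ = a⁻¹ * (s * a) * a⁻¹ := by rw [hsa]
          _ = a⁻¹ * s := by group
      have : s * y * s = y := by
        rw [h3, hsai]
        calc a⁻¹ * s * s = a⁻¹ * (s * s) := by group
          _ = a⁻¹ := by rw [hs, mul_one]
      rw [this] at hsys
      have hyy : y * y = 1 := by
        calc y * y = y * y⁻¹ := by rw [← hsys]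
          _ = 1 := mul_inv_cancel y
      exact hy1 (za_eq_one hyy (hA.2 y hyA))
  · calc z * a = z * a * (z * z) := by rw [hz, mul_one]
      _ = (z * a * z) * z := by group
      _ = a⁻¹ * z := by rw [h]

end Cfsg.Agent.Lib.Helper12.N9
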