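import Cfsg.Agent.Lib.Helper12.N9.SWAP
import Cfsg.Agent.Lib.Helper12.N9.GD1
import Cfsg.Agent.Lib.Helper12.N9.GD2
import Cfsg.Agent.Lib.Helper12.N9.GD3
import Cfsg.Agent.Lib.Helper12.N9.GD4
import Cfsg.Agent.Lib.Helper12.N9.GA1
import Cfsg.Agent.Lib.Helper12.N9.GA2
import Cfsg.Agent.Lib.Helper12.N9.GA3
import Cfsg.Agent.Lib.Helper12.N9.ZA
import Cfsg.Agent.Lib.Helper12.N9.GA4
import Cfsg.Agent.Lib.Helper12.N9.SWG
import Cfsg.Agent.Lib.Helper12.N9.GEN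
import Cfsg.Agent.Lib.Helper12.N9.C3
import Cfsg.Agent.Lib.Helper12.N9.H0
import Cfsg.Agent.Lib.Helper12.N9.NID
import Cfsg.Agent.Lib.Helper12.N9.C1
import Cfsg.Agent.Lib.Helper12.N9.BB
import Cfsg.Agent.Lib.Helper12.N9.ACT
import Cfsg.Agent.Lib.Helper12.N9.SPAN
import Cfsg.Agent.Lib.Helper12.N9.IND
import Cfsg.Agent.Lib.Helper12.N9.CARD
import Cfsg.Agent.Lib.Helper12.N9.FIXS
import Cfsg.Agent.Lib.Helper12.N9.FIXT
import Cfsg.Agent.Lib.Helper12.N9.BR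

set_option autoImplicit false

namespace Cfsg.Agent.Lib.Helper12.N9

variable {S : Type*} [Group S] {M : Type*} [AddCommGroup M] [Module (ZMod 2) M]
  {ρ : Representation (ZMod 2) S M} {a b s t z : S}

theorem core (R : Rel a b s t z) (hgen : Subgroup.closure {a, b, s, t} = ⊤)
    (hirr : ∀ N : Submodule (ZMod 2) M, (∀ g : S, ∀ m ∈ N, ρ g m ∈ N) → N = ⊥ ∨ N = ⊤)
    (h0 : ∀ m : M, ρ a m = m → ρ b m = m → m = 0) (hne : ∃ m : M, m ≠ 0 ∧ ρ a m = m) :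
    Nat.card M = 16 ∧ Nat.card {m : M // ∀ g ∈ Subgroup.closure {z, s}, ρ g m = m} = 4 ∧
      Nat.card {m : M // ∀ g ∈ Subgroup.closure {z, t}, ρ g m = m} = 2 := by
  obtain ⟨w, hw, haw, hsw, hzw⟩ := c1 R hne
  have hbb := bb R h0 haw
  have hspan := span_top R hgen hirr hw haw hsw hzw hbb
  have hind := ind R h0 hw haw hsw hzw hbb
  obtain ⟨h16, h4, h2⟩ := card_all hspan hind
  refine ⟨h16, ?_, ?_⟩
  · refine Eq.trans ?_ h4
    apply Nat.card_congr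
    apply Equiv.subtypeEquivRight
    intro m
    rw [br]
    exact fixs R h0 hw haw hsw hzw hbb hspan m
  · refine Eq.trans ?_ h2
    apply Nat.card_congr
    apply Equiv.subtypeEquivRight
    intro m
    rw [br]
    exact fixt R h0 hw haw hsw hzw hbb hspan m

theorem main [Finite S] (A : Subgroup S) [A.Normal] (hA : Cfsg.IsElementaryAbelian 3 A) (hA9 : Nat.card ↥A = 9)
    (hAC : Subgroup.centralizer (A : Set S) = A) (X : Subgroup S) (hX : Nonempty (↥X ≃* DihedralGroup 4))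
    (hAX : A ⊔ X = ⊤) (ρ : Representation (ZMod 2) S M) (hfaith : Function.Injective ρ)
    (hirr : ∀ N : Submodule (ZMod 2) M, (∀ s : S, ∀ m ∈ N, ρ s m ∈ N) → N = ⊥ ∨ N = ⊤) (hM : Nontrivial M) :
    Nat.card M = 16 ∧
      ∃! B : Subgroup S, B ≤ X ∧ Nat.card ↥B = 4 ∧ (∀ b ∈ B, b ^ 2 = 1) ∧
        Nat.card {m : M // ∀ b ∈ B, ρ b m = m} = 2 := by
  obtain ⟨e⟩ := hX
  obtain ⟨hsX, htX, hzX, s2, t2, z2, zs, zt, tst, sts, hz1, hs1⟩ := gd1 X e
  have hcl := gd2 X e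
  obtain ⟨c4s, c4t, e2s, e2t⟩ := gd4 X e
  obtain ⟨a, ha, ha1, hsa⟩ := ga2 A hA hAC s2 t2 z2 tst hz1
  have hza := za A hA hA9 hAC s2 t2 z2 zs zt tst hz1 hs1 ha ha1 hsa
  have R := ga4 A hA s2 t2 z2 zs zt tst sts ha hsa hza
  have hb : et e * a * et e ∈ A := by
    have h := (inferInstance : A.Normal).conj_mem a ha (et e)
    have hinv : (et e)⁻¹ = et e := inv_eq_of_mul_eq_one_left t2
    rwa [hinv] at h
  obtain ⟨_, hgen⟩ := gen A X hA9 hAX R ha hb ha1 hcl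
  have hh0 := h0 R hgen hfaith hirr ha1
  have hlez : ∀ x : S, x ∈ X → Subgroup.closure {ez e, x} ≤ X := by
    intro x hx
    rw [Subgroup.closure_le]
    intro y hy
    rcases hy with rfl | hy
    · exact hzX
    · rw [Set.mem_singleton_iff] at hy
      exact hy ▸ hx
  rcases nid R hh0 hM with hne | hne
  · obtain ⟨h16, h4, h2⟩ := core R hgen hirr hh0 hne
    refine ⟨h16, Subgroup.closure {ez e, et e}, ⟨hlez _ htX, c4t, e2t, h2⟩, ?_⟩
    rintro B ⟨hBX, hB4, hB2, hBf⟩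
    rcases gd3 X e B hBX hB4 hB2 with rfl | rfl
    · rw [h4] at hBf
      omega
    · rfl
  · obtain ⟨hgen', hab1⟩ := swg R hgen ha1
    have hh0' := h0 R.swap hgen' hfaith hirr hab1
    obtain ⟨h16, h4, h2⟩ := core R.swap hgen' hirr hh0' hne
    refine ⟨h16, Subgroup.closure {ez e, es e}, ⟨hlez _ hsX, c4s, e2s, h2⟩, ?_⟩
    rintro B ⟨hBX, hB4, hB2, hBf⟩
    rcases gd3 X e B hBX hB4 hB2 with rfl | rfl
    · rfl
    · rw [h4] at hBf
      omega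

end Cfsg.Agent.Lib.Helper12.N9
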