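import Cfsg.Agent.Lib.Helper12.N9.Defs
import Cfsg.Prelude.Def_Transfer

set_option autoImplicit false

namespace Cfsg.Agent.Lib.Helper12.N9

variable {S : Type*} [Group S] {M : Type*} [AddCommGroup M] [Module (ZMod 2) M]
  {ρ : Representation (ZMod 2) S M} {a b s t z : S}

/-- [SWAP] pure group computation. -/
theorem Rel.swap (R : Rel a b s t z) : Rel (a * b) (a * b⁻¹) t s z := by
  have cab : Commute a b := R.ab
  have hta : SemiconjBy t a b := R.ta
  have htb : SemiconjBy t b a := R.tb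
  have hsa : SemiconjBy s a a := R.sa
  have hsb : SemiconjBy s b b⁻¹ := R.sb
  have hza : SemiconjBy z a a⁻¹ := R.za
  have hzb : SemiconjBy z b b⁻¹ := R.zb
  refine ⟨?_, ?_, ?_, R.t2, R.s2, R.z2, R.zt, R.zs, R.sts, R.tst, ?_, ?_, ?_, ?_, ?_, ?_⟩
  · rw [cab.mul_pow, R.a3, R.b3, one_mul]
  · rw [cab.inv_right.mul_pow, R.a3, inv_pow, R.b3, inv_one, one_mul]
  · exact (Commute.mul_left ((Commute.refl a).mul_right cab.inv_right)
      (cab.symm.mul_right (Commute.refl b).inv_right)).eq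
  · have h := hta.mul_right htb
    rw [← R.ab] at h
    exact h.eq
  · have h := hta.mul_right htb.inv_right
    have e1 : (a * b⁻¹)⁻¹ = b * a⁻¹ := by rw [mul_inv_rev, inv_inv]
    rw [e1]
    exact h.eq
  · exact (hsa.mul_right hsb).eq
  · have h := hsa.mul_right hsb.inv_right
    rw [inv_inv] at h
    exact h.eq
  · have h := hza.mul_right hzb
    have e1 : (a * b)⁻¹ = a⁻¹ * b⁻¹ := by rw [R.ab, mul_inv_rev]
    rw [e1]
    exact h.eq
  · have h := hza.mul_right hzb.inv_right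
    have e1 : (a * b⁻¹)⁻¹ = a⁻¹ * b⁻¹⁻¹ := by rw [cab.inv_right.eq, mul_inv_rev]
    rw [e1]
    exact h.eq

end Cfsg.Agent.Lib.Helper12.N9
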